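import Mathlib
import Cfsg.Agent.NG.Mod3
import Cfsg.Agent.PLocal.Amalgam

/-!
Quasithin groups with `ℒ_f(G,T) = ∅` and two maximal 2-locals over `C_G(Ω₁Z(T))` (S1832, S1833): definitions.
-/

set_option autoImplicit false
set_option linter.unusedSectionVars false

namespace Cfsg.Agent.QZ

open Subgroup Cfsg.Agent.PLocal Cfsg.Agent.PLocal.Amb Cfsg.Agent.PLocal.CP Cfsg.Agent.PLocal.JC
open Cfsg.Agent.NG MulAction
open scoped commutatorElement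

variable {G : Type*} [Group G]

/-- `Z_A = ⟨Ω₁Z(T)^A⟩` -/
abbrev ZZ (A : Subgroup G) : Subgroup G := sylowCenterClosure 2 A
/-- `K` is a block of `A` on `Z_A` -/
abbrev BK (A K : Subgroup G) : Prop := Blk A (ZZ A) ⊥ K
/-- the line `[Z_A, K]` -/
abbrev WW (A K : Subgroup G) : Subgroup G := bW (ZZ A) ⊥ K
/-- `t` is a transvection on the block `K` -/
abbrev TV (A K : Subgroup G) (t : G) : Prop := Tv A (ZZ A) ⊥ K t

/-- The global hypothesis. -/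
structure HH (T : Subgroup G) : Prop where
  syl : IsSyl 2 T ⊤
  ne : T ≠ ⊥
  solv : ∀ H : Subgroup G, T ≤ H → 𝐐[H] ≠ ⊥ → Group.IsSolvable H
  char : ∀ H : Subgroup G, T ≤ H → 𝐐[H] ≠ ⊥ → IsCharP 2 H
  rank : ∀ H : Subgroup G, 𝐐[H] ≠ ⊥ → PRankLE 3 2 H

/-- The amalgam. -/
structure Am (T A B : Subgroup G) : Prop extends HH T where
  CA : 𝐂[ΩZ[2, T]] ≤ A
  CB : 𝐂[ΩZ[2, T]] ≤ B
  nA : ¬ A ≤ B
  nB : ¬ B ≤ A
  mA : ∀ X : Subgroup G, A ⊓ B ≤ X → X ≤ A → X = A ∨ X ≤ B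
  mB : ∀ X : Subgroup G, A ⊓ B ≤ X → X ≤ B → X = B ∨ X ≤ A
  QA : 𝐐[A] ≠ ⊥
  QB : 𝐐[B] ≠ ⊥
  free : ∀ N : Subgroup G, IsPGroup 2 N → A ≤ 𝐍[N] → B ≤ 𝐍[N] → N = ⊥

/-- The frame of the case `b = 1`: `⟨e, u⟩ ≅ D₈` with centre `v`, the lines `⟨v, e⟩` (permuted by `a ∈ A`) and
`⟨v, u⟩` (permuted by `a' ∈ B`); `C_T(v)` has index at most two in `T`. -/
structure Fr (T A B : Subgroup G) (v e u a a' : G) : Prop where
  two : IsPGroup 2 T
  TA : T ≤ A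
  TB : T ≤ B
  free : ∀ N : Subgroup G, IsPGroup 2 N → A ≤ 𝐍[N] → B ≤ 𝐍[N] → N = ⊥
  eT : e ∈ T
  uT : u ∈ T
  ee : e * e = 1
  uu : u * u = 1
  vv : v * v = 1
  v_ne : v ≠ 1
  v_eq : e * u * e * u = v
  aA : a ∈ A
  aB : a' ∈ B
  a3 : a ^ 3 = 1
  b3 : a' ^ 3 = 1
  av : a * v * a⁻¹ = e
  ae : a * e * a⁻¹ = e * v
  bv : a' * v * a'⁻¹ = u
  bu : a' * u * a'⁻¹ = u * v
  genA : A ≤ zpowers a ⊔ T
  genB : B ≤ zpowers a' ⊔ T
  dec : ∀ x ∈ T, Commute x v → ∃ d ∈ closure {e, u}, Commute (x * d) e ∧ Commute (x * d) u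
  ca : ∀ c ∈ T, Commute c e → Commute c u → Commute c a ∨ Commute (c * v) a
  cb : ∀ c ∈ T, Commute c e → Commute c u → Commute c a' ∨ Commute (c * v) a'
  idx : ∀ s ∈ T, ∀ t ∈ T, ¬ Commute s v → ¬ Commute t v → Commute (s * t) v
  out : ∀ t ∈ T, ¬ Commute t v → Commute e (t * e * t⁻¹) ∧ Commute e (t * u * t⁻¹) ∧
    Commute u (t * e * t⁻¹) ∧ Commute u (t * u * t⁻¹)
  outa : ∀ t ∈ T, ¬ Commute t v → Commute a (t * v * t⁻¹) ∧ Commute a (t * e * t⁻¹) ∧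
    Commute a (t * a * t⁻¹)
  outb : ∀ t ∈ T, ¬ Commute t v → Commute a' (t * v * t⁻¹) ∧ Commute a' (t * u * t⁻¹) ∧
    Commute a' (t * a' * t⁻¹)

/-- critical data for two modules normalizing each other -/
structure Cr (L U L' U' K K' : Subgroup G) (w w' r : G) : Prop where
  tv : Tv L U ⊥ K w'
  tv' : Tv L' U' ⊥ K' w
  w_mem : w ∈ bW U ⊥ K
  w'_mem : w' ∈ bW U' ⊥ K'
  r_mem : r ∈ bW U ⊥ K
  r_mem' : r ∈ bW U' ⊥ K'
  r_ne : r ≠ 1
  eq : w' * w * w'⁻¹ = w * r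
  eq' : w * w' * w⁻¹ = w' * r

theorem Cr.symm {L U L' U' K K' : Subgroup G} {w w' r : G} (h : Cr L U L' U' K K' w w' r) :
    Cr L' U' L U K' K w' w r :=
  ⟨h.tv', h.tv, h.w'_mem, h.w_mem, h.r_mem', h.r_mem, h.r_ne, h.eq', h.eq⟩

theorem ZZ_cj (g : G) (A : Subgroup G) : ZZ cj(g, A) = cj(g, ZZ A) := Amal.sylowCenterClosure_cj A g

theorem BK.cj {A K : Subgroup G} (h : BK A K) (g : G) [Finite G] : BK cj(g, A) cj(g, K) := by
  have := Blk.cj h g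
  rwa [← ZZ_cj, cj_bot] at this

theorem TV.cj {A K : Subgroup G} {t : G} (h : TV A K t) (g : G) [Finite G] :
    TV cj(g, A) cj(g, K) (g * t * g⁻¹) := by
  have := Tv.cj h g
  rwa [← ZZ_cj, cj_bot] at this

theorem WW_cj [Finite G] (g : G) (A K : Subgroup G) : WW cj(g, A) cj(g, K) = cj(g, WW A K) := by
  have := bW_cj g (ZZ A) ⊥ K
  rwa [← ZZ_cj, cj_bot] at this

variable [Finite G] {T A B : Subgroup G}

theorem HH.cj (h : HH T) (g : G) : HH cj(g, T) where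
  syl := by simpa only [cj_top] using h.syl.cj g
  ne := fun e => h.ne (cj_eq_bot.1 e)
  solv := fun H h1 h2 => by
    have := h.solv cj(g⁻¹, H) (cj_le_iff.1 h1) (by rw [pCoreOf_cj]; exact fun e => h2 (cj_eq_bot.1 e))
    have h3 : Group.IsSolvable cj(g, cj(g⁻¹, H)) :=
      solvable_of_surjective (f := (MulAut.conj g).toMonoidHom.subgroupMap _)
        (MonoidHom.subgroupMap_surjective _ _)
    rwa [cj_cj_inv] at h3
  char := fun H h1 h2 => by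
    have := (h.char cj(g⁻¹, H) (cj_le_iff.1 h1)
      (by rw [pCoreOf_cj]; exact fun e => h2 (cj_eq_bot.1 e))).conj g
    rwa [cj_cj_inv] at this
  rank := h.rank

theorem HH.Z_ne (h : HH T) : ΩZ[2, T] ≠ ⊥ := by
  obtain ⟨x, hx, h1⟩ := exists_ne_one (Amb.inf_centralizer_ne_bot h.syl.pgrp h.syl.pgrp le_normalizer h.ne)
  obtain ⟨k, hk⟩ := Amb.isPGroup_iff.1 h.syl.pgrp x hx.1
  induction k generalizing x with
  | zero => exact absurd (by simpa using hk) h1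
  | succ k ih =>
    by_cases h2 : x ^ 2 = 1
    · exact fun e => h1 (mem_bot.1 (e ▸ mem_omegaZ.2 ⟨hx.1, hx.2, h2⟩))
    · exact ih (x ^ 2) (pow_mem hx 2) h2 (by rw [← pow_mul, ← pow_succ']; exact hk)

namespace Am

theorem symm (h : Am T A B) : Am T B A :=
  ⟨h.toHH, h.CB, h.CA, h.nB, h.nA, fun X a b => h.mB X (by rwa [inf_comm]) b,
    fun X a b => h.mA X (by rwa [inf_comm]) b, h.QB, h.QA, fun N a b c => h.free N a c b⟩

theorem cj (h : Am T A B) (g : G) : Am cj(g, T) cj(g, A) cj(g, B) where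
  toHH := h.toHH.cj g
  CA := by rw [omegaZ_cj, centralizer_cj]; exact cj_mono g h.CA
  CB := by rw [omegaZ_cj, centralizer_cj]; exact cj_mono g h.CB
  nA := fun e => h.nA (cj_le_cj_iff.1 e)
  nB := fun e => h.nB (cj_le_cj_iff.1 e)
  mA := fun X a b => (h.mA cj(g⁻¹, X) (cj_le_iff.1 (by rwa [cj_inf])) (le_cj_iff.1 b)).imp
    (fun e => by rw [← e, cj_cj_inv]) le_cj_iff.2
  mB := fun X a b => (h.mB cj(g⁻¹, X) (cj_le_iff.1 (by rwa [cj_inf])) (le_cj_iff.1 b)).imp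
    (fun e => by rw [← e, cj_cj_inv]) le_cj_iff.2
  QA := by rw [pCoreOf_cj]; exact fun e => h.QA (cj_eq_bot.1 e)
  QB := by rw [pCoreOf_cj]; exact fun e => h.QB (cj_eq_bot.1 e)
  free := fun N a b c => cj_eq_bot.1 (h.free cj(g⁻¹, N) (isPGroup_cj _ a)
    (by rw [normalizer_cj]; exact cj_le_iff.1 b) (by rw [normalizer_cj]; exact cj_le_iff.1 c))

variable (h : Am T A B)
include h

theorem TA : T ≤ A := (le_centralizer_omegaZ T).trans h.CA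
theorem TB : T ≤ B := h.symm.TA
theorem TD : T ≤ A ⊓ B := le_inf h.TA h.TB
theorem sylA : IsSyl 2 T A := h.syl.mono h.TA le_top
theorem sylD : IsSyl 2 T (A ⊓ B) := h.syl.mono h.TD le_top
theorem solvA : Group.IsSolvable A := h.solv A h.TA h.QA
theorem charA : IsCharP 2 A := h.char A h.TA h.QA
theorem red : IsPRed 2 (ZZ A) A := h.charA.isPRed_sylowCenterClosure
theorem mod : Mod A (ZZ A) ⊥ := mod_of_isPRed h.solvA h.red
theorem rankA : PRankLE 3 2 A := h.rank A h.QA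
theorem ZZ_eq : ZZ A = ncl ΩZ[2, T] A := sylowCenterClosure_eq_ncl h.sylA
theorem Z_le : ΩZ[2, T] ≤ ZZ A := h.ZZ_eq ▸ le_ncl _ _
theorem ZZ_ne : ZZ A ≠ ⊥ := fun e => h.Z_ne (le_bot_iff.1 (e ▸ h.Z_le))
theorem ZZ_le : ZZ A ≤ T := h.red.le_syl h.sylA
theorem C_leA : 𝐂[ZZ A] ≤ A := (centralizer_anti h.Z_le).trans h.CA
theorem C_leB : 𝐂[ZZ A] ≤ B := (centralizer_anti h.Z_le).trans h.CB
theorem normZ : A ≤ 𝐍[ZZ A] := h.red.norm

/-- the Sylow subgroup may be moved inside `A ⊓ B` -/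
theorem cj_mem {d : G} (hA : d ∈ A) (hB : d ∈ B) : Am cj(d, T) A B := by
  have := h.cj d
  rwa [cj_of_mem hA, cj_of_mem hB] at this

theorem exists_ge {R : Subgroup G} (hR : IsPGroup 2 R) (h1 : R ≤ A ⊓ B) : ∃ T', Am T' A B ∧ R ≤ T' := by
  obtain ⟨d, hd, e⟩ := h.sylD.exists_le_cj hR h1
  exact ⟨_, h.cj_mem hd.1 hd.2, e⟩

/-- an overgroup of `A ⊓ B` in `A` with an element outside `B` is `A` -/
theorem eq_of {X : Subgroup G} (h1 : A ⊓ B ≤ X) (h2 : X ≤ A) (h3 : ¬ X ≤ B) : X = A :=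
  (h.mA X h1 h2).resolve_right h3

end Am

/-- A graph with an edge transitive, locally transitive action whose edges give amalgams. -/
structure Gr (G : Type*) [Group G] {V : Type*} [MulAction G V] (adj : V → V → Prop) : Prop where
  symm : ∀ {α β}, adj α β → adj β α
  smul : ∀ (g : G) {α β}, adj α β → adj (g • α) (g • β)
  tr : ∀ {α β γ}, adj α β → adj α γ → ∃ g ∈ stabilizer G α, g • β = γ
  etr : ∀ {α β γ δ}, adj α β → adj γ δ → ∃ g : G, (g • α = γ ∧ g • β = δ) ∨ (g • α = δ ∧ g • β = γ)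
  am : ∀ {α β}, adj α β → ∃ T, Am T (stabilizer G α) (stabilizer G β)

theorem Am.gr (h : Am T A B) : Gr G (cosetGraph A B).Adj where
  symm := fun a => a.symm
  smul := fun g _ _ a => Amal.adj_smul a g
  tr := Amal.exists_smul_eq_of_adj
  etr := fun a b => by
    obtain ⟨x, hx⟩ := Amal.adj_iff.1 a
    obtain ⟨y, hy⟩ := Amal.adj_iff.1 b
    refine ⟨y * x⁻¹, ?_⟩
    rcases hx with ⟨rfl, rfl⟩ | ⟨rfl, rfl⟩ <;> rcases hy with ⟨rfl, rfl⟩ | ⟨rfl, rfl⟩ <;>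
      simp [Amal.smul_inl, Amal.smul_inr]
  am := fun a => by
    obtain ⟨x, ⟨e1, e2⟩ | ⟨e1, e2⟩⟩ := Amal.exists_stabilizer_eq_of_adj a
    · exact ⟨_, e1 ▸ e2 ▸ h.cj x⟩
    · exact ⟨_, e1 ▸ e2 ▸ h.symm.cj x⟩

theorem stab_smul {V : Type*} [MulAction G V] (g : G) (α : V) :
    stabilizer G (g • α) = cj(g, stabilizer G α) := stabilizer_smul_eq_stabilizer_map_conj g α

end Cfsg.Agent.QZ
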