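import Mathlib
import Cfsg.Agent.QZ.Def

/-! Element-wise facts on blocks of an elementary abelian module. -/

set_option autoImplicit false
set_option linter.unusedSectionVars false

namespace Cfsg.Agent.QZ

open Subgroup Cfsg.Agent.PLocal Cfsg.Agent.PLocal.Amb Cfsg.Agent.PLocal.CP Cfsg.Agent.PLocal.JC
open Cfsg.Agent.NG
open scoped commutatorElement

variable {G : Type*} [Group G]

theorem comm_iff {a b : G} : Commute a b ↔ a * b * a⁻¹ = b := by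
  rw [mul_inv_eq_iff_eq_mul]; rfl

theorem comm_cj {a b : G} (h : Commute a b) (g : G) : Commute (g * a * g⁻¹) (g * b * g⁻¹) := by
  have := h.map (MulAut.conj g); simpa only [MulAut.conj_apply] using this

theorem comm_cj_iff {a b : G} (g : G) : Commute (g * a * g⁻¹) (g * b * g⁻¹) ↔ Commute a b :=
  ⟨fun h => by simpa [mul_assoc] using comm_cj h g⁻¹, fun h => comm_cj h g⟩

theorem mem_C {X : Subgroup G} {g : G} : g ∈ 𝐂[X] ↔ ∀ x ∈ X, Commute g x :=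
  mem_centralizer_iff.trans (forall₂_congr fun _ _ => ⟨fun h => h.symm, fun h => h.symm⟩)

theorem mem_C₁ {x g : G} : g ∈ 𝐂₁[x] ↔ Commute g x := mem_centralizer_singleton_iff

theorem cj_ne_one {g x : G} (h : x ≠ 1) : g * x * g⁻¹ ≠ 1 := fun e => h (by
  have := congrArg (fun y => g⁻¹ * y * g) e; simpa [mul_assoc] using this)

theorem inv_sq {a : G} (h : a * a = 1) : a⁻¹ = a := inv_eq_of_mul_eq_one_right h

variable [Finite G]

theorem four_mem {V : Subgroup G} (h4 : Nat.card V = 4) (h2 : ∀ v ∈ V, v * v = 1) {p w x : G} (hp : p ∈ V)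
    (hw : w ∈ V) (p1 : p ≠ 1) (w1 : w ≠ 1) (hne : w ≠ p) (hx : x ∈ V) :
    x = 1 ∨ x = p ∨ x = w ∨ x = w * p := by
  classical
  by_contra! k
  obtain ⟨a, b, c, d⟩ := k
  have e1 : w * p ≠ 1 := fun e => hne (mul_right_cancel (e.trans (h2 p hp).symm))
  have e2 : w * p ≠ p := fun e => w1 (by simpa using e)
  have e3 : w * p ≠ w := fun e => p1 (by simpa using e)
  have h5 : (({x, w * p, w, p, 1} : Finset G) : Set G) ⊆ V := by
    intro y hy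
    simp only [Finset.coe_insert, Finset.coe_singleton, Set.mem_insert_iff, Set.mem_singleton_iff] at hy
    rcases hy with rfl | rfl | rfl | rfl | rfl
    exacts [hx, mul_mem hw hp, hw, hp, one_mem _]
  have h6 := Set.ncard_le_ncard h5 (Set.toFinite _)
  rw [Set.ncard_coe_finset, ← Nat.card_coe_set_eq] at h6
  have h7 : Nat.card (V : Set G) = 4 := h4
  rw [h7, Finset.card_insert_of_notMem (by simp [a, b, c, d]), Finset.card_insert_of_notMem (by simp [e1, e2, e3]),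
    Finset.card_insert_of_notMem (by simp [w1, hne]), Finset.card_pair p1] at h6
  omega

variable {L U K K' L' U' : Subgroup G}

theorem mem_fx {A : Subgroup G} {u : G} : u ∈ fx U ⊥ A ↔ u ∈ U ∧ ∀ a ∈ A, Commute u a := by
  rw [fx_bot, mem_inf, mem_C]

theorem mem_fx_zp {t u : G} : u ∈ fx U ⊥ (zpowers t) ↔ u ∈ U ∧ Commute u t := by
  rw [fx_bot, mem_inf, Amb.centralizer_zpowers, mem_C₁]

theorem W_card (hK : Blk L U ⊥ K) : Nat.card (bW U ⊥ K) = 4 := by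
  simpa only [relIndex_bot_left] using hK.card

theorem Blk_ge (hK : Blk L U ⊥ K) : L ⊓ 𝐂[U] ≤ K := by simpa only [secCent_bot] using hK.ge

theorem Blk_or (hK : Blk L U ⊥ K) {X : Subgroup G} (h1 : L ⊓ 𝐂[U] ≤ X) {k : G} (hk : k ∈ K) (hk' : k ∉ 𝐂[U])
    (hX : k ∈ X) : K ≤ X := by
  rcases hK.eq_or_eq (X := K ⊓ X) (by rw [secCent_bot]; exact le_inf (Blk_ge hK) h1) inf_le_left with e | e
  · rw [secCent_bot] at e
    exact absurd (e.le ⟨hk, hX⟩).2 hk'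
  · exact e.ge.trans inf_le_right

theorem Blk_ex (hK : Blk L U ⊥ K) : ∃ k ∈ K, k ∉ 𝐂[U] := by
  simpa only [secCent_bot, SetLike.not_le_iff_exists] using hK.not_le

section
variable (h : Mod L U ⊥)
include h

theorem msq {u : G} (hu : u ∈ U) : u * u = 1 := mem_bot.1 (h.sq u hu)

theorem mcomm {u v : G} (hu : u ∈ U) (hv : v ∈ U) : Commute u v :=
  commutatorElement_eq_one_iff_commute.1 (mem_bot.1 (h.comm (commutator_mem_commutator hu hv)))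

theorem normC : L ≤ 𝐍[𝐂[U]] := Amb.le_normalizer_centralizer h.normU

theorem W_le (hK : Blk L U ⊥ K) : bW U ⊥ K ≤ U := h.bW_le hK.le

theorem W_cases (hK : Blk L U ⊥ K) {p w x : G} (hp : p ∈ bW U ⊥ K) (hw : w ∈ bW U ⊥ K) (p1 : p ≠ 1)
    (w1 : w ≠ 1) (hne : w ≠ p) (hx : x ∈ bW U ⊥ K) : x = 1 ∨ x = p ∨ x = w ∨ x = w * p :=
  four_mem (W_card hK) (fun _ hv => msq h (W_le h hK hv)) hp hw p1 w1 hne hx

theorem W_ex (hK : Blk L U ⊥ K) (p : G) : ∃ w ∈ bW U ⊥ K, w ≠ 1 ∧ w ≠ p := by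
  by_contra! k
  have h5 : (bW U ⊥ K : Set G) ⊆ {1, p} := fun w hw => by
    by_cases e : w = 1
    · exact Or.inl e
    · exact Or.inr (k w hw e)
  have h6 := (Set.ncard_le_ncard h5 (Set.toFinite _)).trans (Set.ncard_insert_le 1 {p})
  rw [← Nat.card_coe_set_eq, Set.ncard_singleton] at h6
  have h7 : Nat.card (bW U ⊥ K : Set G) = 4 := W_card hK
  omega

/-- an element normalizing a line and fixing a point -/
theorem cpt (hK : Blk L U ⊥ K) {g p w : G} (hg : g ∈ 𝐍[bW U ⊥ K]) (hp : p ∈ bW U ⊥ K) (p1 : p ≠ 1)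
    (hc : Commute g p) (hw : w ∈ bW U ⊥ K) : g * w * g⁻¹ = w ∨ g * w * g⁻¹ = w * p := by
  by_cases w1 : w = 1
  · left; simp [w1]
  by_cases w2 : w = p
  · left; rw [w2]; exact comm_iff.1 hc
  rcases W_cases h hK hp hw p1 w1 w2 (Amb.conj_mem_of_mem_normalizer hg hw) with e | e | e | e
  · exact absurd e (cj_ne_one w1)
  · rw [← comm_iff.1 hc] at e
    exact absurd (by simpa using e) w2
  · exact Or.inl e
  · exact Or.inr e

theorem norm_of_fix (hK : Blk L U ⊥ K) {g p : G} (hg : g ∈ L) (hp : p ∈ bW U ⊥ K) (p1 : p ≠ 1)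
    (hc : Commute g p) : g ∈ 𝐍[K] ∧ g ∈ 𝐍[bW U ⊥ K] :=
  h.mem_normalizer_blk hK hg hp (by simpa using p1) (by rw [comm_iff.1 hc]; exact hp)

theorem normW (hK : Blk L U ⊥ K) {g : G} (hg : g ∈ L) (hn : g ∈ 𝐍[K]) : g ∈ 𝐍[bW U ⊥ K] := by
  rw [← cj_eq_iff, ← (h.blk_cj hK hg).2.1, cj_eq_iff.2 hn]

theorem K_normW (hK : Blk L U ⊥ K) {k : G} (hk : k ∈ K) : k ∈ 𝐍[bW U ⊥ K] :=
  normW h hK (hK.le hk) (le_normalizer hk)

theorem K_fix (hK : Blk L U ⊥ K) {k w : G} (hk : k ∈ K) (hw : w ∈ bW U ⊥ K) (w1 : w ≠ 1)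
    (hc : Commute k w) : k ∈ 𝐂[U] := by
  by_contra hk'
  have h1 : K ≤ 𝐂₁[w] := Blk_or hK (fun x hx => mem_C₁.2 (mem_C.1 hx.2 w (W_le h hK hw))) hk hk' (mem_C₁.2 hc)
  have h2 : w ∈ bW U ⊥ K ⊓ fx U ⊥ K := ⟨hw, mem_fx.2 ⟨W_le h hK hw, fun a ha => (mem_C₁.1 (h1 ha)).symm⟩⟩
  rw [(h.blk_compl hK).2] at h2
  exact w1 h2

theorem K_comm (hK : Blk L U ⊥ K) (hK' : Blk L U ⊥ K') (hne : K ≠ K') {k w : G} (hk : k ∈ K)
    (hw : w ∈ bW U ⊥ K') : Commute k w := ((mem_fx.1 ((h.blk_ne hK hK' hne).1 hw)).2 k hk).symm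

theorem blk_eq' (hK : Blk L U ⊥ K) (hK' : Blk L U ⊥ K') {w : G} (h1 : w ∈ bW U ⊥ K) (h2 : w ∈ bW U ⊥ K')
    (h3 : w ≠ 1) : K = K' := h.blk_eq hK hK' h1 h2 (by simpa using h3)

theorem K_norm (hK : Blk L U ⊥ K) (hK' : Blk L U ⊥ K') {k : G} (hk : k ∈ K') : k ∈ 𝐍[K] :=
  (h.bN_norm_blk hK).2.1 ((h.bN_norm_blk hK').1 hk)

theorem cent_of (hK : Blk L U ⊥ K) {g : G} (h1 : ∀ w ∈ bW U ⊥ K, Commute g w)
    (h2 : ∀ w ∈ fx U ⊥ K, Commute g w) : g ∈ 𝐂[U] := by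
  rw [← (h.blk_compl hK).1, Amb.centralizer_sup]
  exact ⟨mem_C.2 h1, mem_C.2 h2⟩

theorem comm_K (hK : Blk L U ⊥ K) {g k : G} (hg : g ∈ 𝐍[K]) (h1 : ∀ w ∈ bW U ⊥ K, Commute g w) (hk : k ∈ K) :
    g * k * g⁻¹ * k⁻¹ ∈ 𝐂[U] := by
  obtain ⟨p, hp, p1, -⟩ := W_ex h hK 1
  refine K_fix h hK (mul_mem (Amb.conj_mem_of_mem_normalizer hg hk) (inv_mem hk)) hp p1 (comm_iff.2 ?_)
  have e1 := comm_iff.1 (h1 _ (Amb.inv_conj_mem_of_mem_normalizer (K_normW h hK hk) hp)).inv_left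
  have e2 := comm_iff.1 (h1 p hp)
  calc _ = g * (k * (g⁻¹ * (k⁻¹ * p * k) * g⁻¹⁻¹) * k⁻¹) * g⁻¹ := by group
    _ = g * p * g⁻¹ := by rw [e1]; group
    _ = p := e2

theorem cube_mem (hK : Blk L U ⊥ K) {k : G} (hk : k ∈ K) : k ^ 3 ∈ 𝐂[U] := by
  have := pow_relIndex_mem' (hK.le.trans h.norm_ker) hk
  rwa [hK.idx, secCent_bot] at this

theorem mem_of_sq (hK : Blk L U ⊥ K) {k : G} (hk : k ∈ K) {X : Subgroup G} (hX : L ⊓ 𝐂[U] ≤ X) (h2 : k * k ∈ X) :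
    k ∈ X := by
  have := mul_mem (hX ⟨pow_mem (hK.le hk) 3, cube_mem h hK hk⟩) (inv_mem h2)
  rwa [show k ^ 3 * (k * k)⁻¹ = k by group] at this

theorem three (hK : Blk L U ⊥ K) {x y : G} (hx : x ∈ K) (hx' : x ∉ 𝐂[U]) (hy : y ∈ K) :
    y ∈ 𝐂[U] ∨ y * x⁻¹ ∈ 𝐂[U] ∨ y * x ∈ 𝐂[U] := by
  have := three_cases hK.idx' hK.ge (hK.le.trans h.norm_D) hx (fun e => hx' (secCent_bot U ▸ e.2)) hy
  rw [secCent_bot] at this
  exact this.imp (·.2) (Or.imp (·.2) (·.2))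

theorem tv_normW {t : G} (ht : Tv L U ⊥ K t) : t ∈ 𝐍[bW U ⊥ K] := normW h ht.blk ht.mem ht.norm

theorem tv_fix {t u : G} (ht : Tv L U ⊥ K t) (hu : u ∈ fx U ⊥ K) : Commute t u :=
  (mem_fx_zp.1 (ht.fix hu)).2.symm

theorem tv_comm {t w : G} (ht : Tv L U ⊥ K t) (hK' : Blk L U ⊥ K') (hne : K ≠ K') (hw : w ∈ bW U ⊥ K') :
    Commute t w := tv_fix h ht ((h.blk_ne ht.blk hK' hne).1 hw)

theorem tv_act {t : G} (ht : Tv L U ⊥ K t) : ∃ w ∈ bW U ⊥ K, ¬ Commute t w := by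
  by_contra! k
  exact ht.act fun w hw => mem_fx_zp.2 ⟨W_le h ht.blk hw, (k w hw).symm⟩

theorem tv_inv {t k : G} (ht : Tv L U ⊥ K t) (hk : k ∈ K) : t * k * t⁻¹ * k ∈ 𝐂[U] := by
  simpa only [secCent_bot] using ht.inv k hk

theorem tv_ex {t : G} (ht : Tv L U ⊥ K t) : ∃ r ∈ bW U ⊥ K, r ≠ 1 ∧ Commute t r := by
  obtain ⟨w, hw, hn⟩ := tv_act h ht
  have h1 := Amb.conj_mem_of_mem_normalizer (tv_normW h ht) hw
  have hU := W_le h ht.blk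
  refine ⟨w * (t * w * t⁻¹), mul_mem hw h1, fun e => hn (comm_iff.2 ?_), comm_iff.2 ?_⟩
  · exact mul_left_cancel (e.trans (msq h (hU hw)).symm)
  · have h2 : t * t ∈ 𝐂[U] := secCent_bot U ▸ ht.sq
    have h3 := comm_iff.1 (mem_C.1 h2 w (hU hw))
    calc _ = (t * w * t⁻¹) * (t * t * w * (t * t)⁻¹) := by group
      _ = _ := by rw [h3]; exact (mcomm h (hU h1) (hU hw)).eq

theorem tv_uniq {t r w : G} (ht : Tv L U ⊥ K t) (hr : r ∈ bW U ⊥ K) (r1 : r ≠ 1) (hc : Commute t r)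
    (hw : w ∈ bW U ⊥ K) (hc' : Commute t w) : w = 1 ∨ w = r := by
  by_contra! k
  obtain ⟨x, hx, hn⟩ := tv_act h ht
  rcases W_cases h ht.blk hr hw r1 k.1 k.2 hx with rfl | rfl | rfl | rfl
  exacts [hn (Commute.one_right _), hn hc, hn hc', hn (hc'.mul_right hc)]

theorem tv_W {t r w : G} (ht : Tv L U ⊥ K t) (hr : r ∈ bW U ⊥ K) (r1 : r ≠ 1) (hc : Commute t r)
    (hw : w ∈ bW U ⊥ K) (w1 : w ≠ 1) (w2 : w ≠ r) : t * w * t⁻¹ = w * r :=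
  (cpt h ht.blk (tv_normW h ht) hr r1 hc hw).resolve_left fun e =>
    (tv_uniq h ht hr r1 hc hw (comm_iff.2 e)).elim w1 w2

theorem tv_pt {t r u : G} (ht : Tv L U ⊥ K t) (hr : r ∈ bW U ⊥ K) (r1 : r ≠ 1) (hc : Commute t r)
    (hu : u ∈ U) : t * u * t⁻¹ = u ∨ t * u * t⁻¹ = u * r := by
  obtain ⟨w, hw, hf⟩ := h.exists_comp ht.blk hu
  have e := comm_iff.1 (tv_fix h ht hf)
  have e' : t * u * t⁻¹ = u * w⁻¹ * (t * w * t⁻¹) := by rw [← e]; group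
  rcases cpt h ht.blk (tv_normW h ht) hr r1 hc hw with e1 | e1 <;> rw [e1] at e'
  · left; rw [e']; group
  · right; rw [e']; group

/-- two elements normalizing a line, fixing a point and acting nontrivially act alike -/
theorem mul_cent (hK : Blk L U ⊥ K) {g g' p : G} (hg : g ∈ 𝐍[bW U ⊥ K]) (hg' : g' ∈ 𝐍[bW U ⊥ K])
    (hp : p ∈ bW U ⊥ K) (p1 : p ≠ 1) (hc : Commute g p) (hc' : Commute g' p)
    (hn : ¬ ∀ w ∈ bW U ⊥ K, Commute g w) (hn' : ¬ ∀ w ∈ bW U ⊥ K, Commute g' w) :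
    ∀ w ∈ bW U ⊥ K, Commute (g * g') w := by
  obtain ⟨x, hx, x1, x2⟩ := W_ex h hK p
  have key : ∀ f : G, Commute f p → Commute f x → ∀ w ∈ bW U ⊥ K, Commute f w := fun f a b w hw => by
    rcases W_cases h hK hp hx p1 x1 x2 hw with rfl | rfl | rfl | rfl
    exacts [Commute.one_right _, a, b, b.mul_right a]
  have e := (cpt h hK hg hp p1 hc hx).resolve_left fun e => hn (key g hc (comm_iff.2 e))
  have e' := (cpt h hK hg' hp p1 hc' hx).resolve_left fun e => hn' (key g' hc' (comm_iff.2 e))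
  refine key _ (hc.mul_left hc') (comm_iff.2 ?_)
  calc _ = g * (g' * x * g'⁻¹) * g⁻¹ := by group
    _ = (g * x * g⁻¹) * (g * p * g⁻¹) := by rw [e']; group
    _ = x := by rw [e, comm_iff.1 hc, mul_assoc, msq h (W_le h hK hp), mul_one]

theorem tv_of (hK : Blk L U ⊥ K) {t r : G} (ht : t ∈ L) (hr : r ∈ bW U ⊥ K) (r1 : r ≠ 1)
    (h1 : ∀ u ∈ U, t * u * t⁻¹ = u ∨ t * u * t⁻¹ = u * r) {w : G} (hw : w ∈ U) (hn : ¬ Commute t w) :
    Tv L U ⊥ K t := by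
  have hU := W_le h hK hr
  have e : t * w * t⁻¹ = w * r := (h1 w hw).resolve_left fun e => hn (comm_iff.2 e)
  obtain ⟨J, hJ⟩ := h.exists_tv ht (relIndex_eq_two_iff.2 ⟨w, hw, fun b hb => by
    simp only [mem_fx_zp, hb, mul_mem hb hw, true_and]
    rcases h1 b hb with e1 | e1
    · have c := (comm_iff.2 e1).symm
      exact Or.inr ⟨c, fun c' => hn (Commute.symm (by simpa using c.inv_left.mul_left c'))⟩
    · refine Or.inl ⟨(comm_iff.2 ?_).symm, fun c => r1 (by simpa [comm_iff.1 c.symm] using e1)⟩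
      calc _ = (t * b * t⁻¹) * (t * w * t⁻¹) := by group
        _ = b * (r * w) * r := by rw [e, e1]; group
        _ = b * w := by rw [(mcomm h hU hw).eq, mul_assoc, mul_assoc, msq h hU, mul_one]⟩)
  obtain ⟨s, hs, s1, hc⟩ := tv_ex h hJ
  have e' := (tv_pt h hJ hs s1 hc hw).resolve_left fun e => hn (comm_iff.2 e)
  obtain rfl : r = s := mul_left_cancel (e.symm.trans e')
  rwa [blk_eq' h hK hJ.blk hr hs r1]

theorem W_le_bN (hK : Blk L U ⊥ K) : bW U ⊥ K ≤ bW U ⊥ (bN L U ⊥) := by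
  rw [bW_bot, bW_bot]; exact commutator_mono le_rfl (h.bN_norm_blk hK).1

theorem eq_one_of_fx {u : G} (h1 : u ∈ bW U ⊥ (bN L U ⊥)) (h2 : ∀ J, Blk L U ⊥ J → u ∈ fx U ⊥ J) : u = 1 := by
  have : u ∈ bW U ⊥ (bN L U ⊥) ⊓ fx U ⊥ (bN L U ⊥) := ⟨h1, h.mem_fx_bN.2 ⟨h.bW_le h.bN_norm.1 h1, h2⟩⟩
  rwa [h.bWs_all.2.2.1] at this

theorem cent_all {g : G} (h1 : ∀ J, Blk L U ⊥ J → ∀ w ∈ bW U ⊥ J, Commute g w)
    (h2 : ∀ u ∈ U, (∀ J, Blk L U ⊥ J → u ∈ fx U ⊥ J) → Commute g u) : g ∈ 𝐂[U] := by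
  rw [← h.bWs_all.2.1, Amb.centralizer_sup, ← h.bWs_all.1]
  refine ⟨?_, mem_C.2 fun u hu => h2 u (h.mem_fx_bN.1 hu).1 (h.mem_fx_bN.1 hu).2⟩
  have : bWs U ⊥ {K | Blk L U ⊥ K} ≤ 𝐂₁[g] :=
    sup_le bot_le (iSup₂_le fun J hJ w hw => mem_C₁.2 (h1 J hJ w hw).symm)
  exact mem_C.2 fun x hx => (mem_C₁.1 (this hx)).symm

end

theorem off (h : Mod L U ⊥) (h' : Mod L' U' ⊥) (h1 : U' ≤ L) (h2 : U ≤ L') :
    (∀ J, Blk L U ⊥ J → U' ≤ 𝐍[bW U ⊥ J]) ∧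
      ∀ u ∈ U, (∀ J, Blk L U ⊥ J → u ∈ fx U ⊥ J) → U' ≤ 𝐂₁[u] := by
  have ea : ∀ {L U : Subgroup G} (X : Subgroup G), Mod L U ⊥ → EAMod U X := fun X k =>
    ⟨k.comm.trans bot_le, fun a ha => by rw [msq k ha]; exact one_mem _⟩
  have a := h'.relIndex_le h2 (ea _ h)
  obtain ⟨I, t, ht, hle, -⟩ := h.offender h1 (ea _ h') (by
    rw [fx_bot, secCent_bot, inf_relIndex_left] at a ⊢; exact a)
  rw [secCent_bot] at hle
  refine ⟨fun J hJ => hle.trans (sup_le ((centralizer_anti (W_le h hJ)).trans (centralizer_le_normalizer' _))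
    (iSup₂_le fun K hK => zpowers_le.2 ((h.tv_facts (ht K hK).2).2.2.2.2 J hJ).2)),
    fun u hu hf => hle.trans (sup_le (fun x hx => mem_C₁.2 (mem_C.1 hx u hu))
      (iSup₂_le fun K hK => zpowers_le.2 (mem_C₁.2 (tv_fix h (ht K hK).2 (hf K (ht K hK).2.blk)))))⟩

/-- two non-commuting modules normalizing each other -/
theorem sw (h : Mod L U ⊥) (h' : Mod L' U' ⊥) (h1 : U' ≤ L) (h2 : U ≤ L') (hn : ¬ U' ≤ 𝐂[U]) :
    ∃ K K' w w' r, Cr L U L' U' K K' w w' r := by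
  obtain ⟨a1, a2⟩ := off h h' h1 h2
  obtain ⟨b1, b2⟩ := off h' h h2 h1
  obtain ⟨u', hu', hn⟩ := SetLike.not_le_iff_exists.1 hn
  obtain ⟨K, hK, w, hw, c⟩ : ∃ K, Blk L U ⊥ K ∧ ∃ w ∈ bW U ⊥ K, ¬ Commute u' w := by
    by_contra! k
    exact hn (cent_all h k fun u hu hf => (mem_C₁.1 (a2 u hu hf hu')))
  have hwU := W_le h hK hw
  obtain ⟨K', hK', w', hw', c'⟩ : ∃ K', Blk L' U' ⊥ K' ∧ ∃ w' ∈ bW U' ⊥ K', ¬ Commute w w' := by
    by_contra! k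
    exact c (mem_C.1 (cent_all h' k fun u hu hf => (mem_C₁.1 (b2 u hu hf hwU))) u' hu').symm
  have hwU' := W_le h' hK' hw'
  have i := inv_sq (msq h hwU)
  have i' := inv_sq (msq h' hwU')
  have r1 : w⁻¹ * (w' * w * w'⁻¹) ∈ bW U ⊥ K :=
    mul_mem (inv_mem hw) (Amb.conj_mem_of_mem_normalizer (a1 K hK hwU') hw)
  have r2 : w⁻¹ * (w' * w * w'⁻¹) ∈ bW U' ⊥ K' := by
    have := mul_mem (Amb.inv_conj_mem_of_mem_normalizer (b1 K' hK' hwU) hw') (inv_mem hw')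
    simpa only [mul_assoc] using this
  set r := w⁻¹ * (w' * w * w'⁻¹) with hr
  have r3 : r ≠ 1 := fun e => c' (comm_iff.2 (inv_mul_eq_one.1 e).symm).symm
  have e1 : w' * w * w'⁻¹ = w * r := by rw [hr]; group
  have e2 : w * w' * w⁻¹ = w' * r := by
    rw [(mcomm h' hwU' (W_le h' hK' r2)).eq, hr, i, i']; simp only [mul_assoc, msq h' hwU', mul_one]
  have key : ∀ {L U L' U' K K' : Subgroup G} {w' r : G}, Mod L U ⊥ → Mod L' U' ⊥ → Blk L U ⊥ K →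
      Blk L' U' ⊥ K' → U ≤ 𝐍[bW U' ⊥ K'] → w' ∈ bW U' ⊥ K' → r ∈ bW U ⊥ K → r ∈ bW U' ⊥ K' → r ≠ 1 →
      ∀ u ∈ U, w' * u * w'⁻¹ = u ∨ w' * u * w'⁻¹ = u * r := by
    intro L U L' U' K K' w' r h h' hK hK' n hw' r1 r2 r3 u hu
    have cm := mcomm h hu (W_le h hK r1)
    rcases cpt h' hK' (n hu) r2 r3 cm hw' with e | e
    · exact Or.inl (comm_iff.1 (comm_iff.2 e).symm)
    · right
      have i' := inv_sq (msq h' (W_le h' hK' hw'))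
      calc w' * u * w'⁻¹ = w'⁻¹ * (u * w' * u⁻¹) * u := by rw [i']; group
        _ = u * r := by rw [e, cm.eq]; group
  exact ⟨K, K', w, w', r, tv_of h hK (h1 hwU') r1 r3 (key h h' hK hK' (b1 K' hK') hw' r1 r2 r3) hwU
    fun c => c' c.symm, tv_of h' hK' (h2 hwU) r2 r3 (key h' h hK' hK (a1 K hK) hw r2 r1 r3) hwU' c',
    hw, hw', r1, r2, r3, e1, e2⟩

end Cfsg.Agent.QZ
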