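import Mathlib
import Cfsg.Agent.QZ.Def

/-! Element calculus in a frame `Fr`: the dihedral group `⟨e, u⟩` and its centralizer in `T`. -/

set_option autoImplicit false
set_option linter.unusedSectionVars false

namespace Cfsg.Agent.QZ

open Subgroup Cfsg.Agent.PLocal Cfsg.Agent.PLocal.Amb Cfsg.Agent.PLocal.CP Cfsg.Agent.PLocal.JC
open scoped commutatorElement

variable {G : Type*} [Group G]

namespace FA

theorem comm_mul {a b a' b' : G} (h1 : Commute a b) (h2 : Commute a b') (h3 : Commute a' b)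
    (h4 : Commute a' b') : ⁅a * b, a' * b'⁆ = ⁅a, a'⁆ * ⁅b, b'⁆ := by
  simp only [commutatorElement_def]
  rw [h1.mul_inv, h4.mul_inv, h3.symm.mul_mul_mul_comm,
    (h1.mul_right h2).symm.inv_right.mul_mul_mul_comm,
    ((h3.mul_right h4).mul_right h3.inv_right).symm.inv_right.mul_mul_mul_comm]

theorem cc (g x y : G) : Commute (g * x * g⁻¹) (g * y * g⁻¹) ↔ Commute x y := Commute.conj_iff g

theorem cc' (g x y : G) : Commute (g⁻¹ * x * g) y ↔ Commute x (g * y * g⁻¹) := by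
  rw [← cc g]; simp [mul_assoc]

theorem fix {g x : G} (h : Commute g x) : g * x * g⁻¹ = x := by rw [h.eq, mul_inv_cancel_right]

theorem ofFix {g x : G} (h : g * x * g⁻¹ = x) : Commute g x := mul_inv_eq_iff_eq_mul.1 h

theorem cj_comm {g x y : G} (h1 : Commute g y) (h2 : Commute x y) : Commute (g * x * g⁻¹) y :=
  (h1.mul_left h2).mul_left h1.inv_left

theorem left_of_mul {x y w : G} (h1 : Commute (x * y) w) (h2 : Commute y w) : Commute x w := by
  simpa using h1.mul_left h2.inv_left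

theorem right_of_mul {x y w : G} (h1 : Commute (x * y) w) (h2 : Commute x w) : Commute y w := by
  simpa using h2.inv_left.mul_left h1

theorem cl_comm {e u c d : G} (h1 : Commute c e) (h2 : Commute c u) (hd : d ∈ closure {e, u}) :
    Commute c d := by
  refine (closure_le (K := centralizer {c})).2 ?_ hd c rfl
  rintro _ (rfl | rfl) _ rfl
  exacts [h1, h2]

theorem comm_of_sq {X : Subgroup G} (h : ∀ c ∈ X, c * c = 1) {x y : G} (hx : x ∈ X) (hy : y ∈ X) :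
    Commute x y := by
  rw [commute_iff_eq, ← inv_eq_of_mul_eq_one_right (h _ (mul_mem hx hy)), mul_inv_rev,
    inv_eq_of_mul_eq_one_right (h _ hx), inv_eq_of_mul_eq_one_right (h _ hy)]

/-- `C_T(x, y)` -/
def C2 (T : Subgroup G) (x y : G) : Subgroup G where
  carrier := {c | c ∈ T ∧ Commute c x ∧ Commute c y}
  mul_mem' := fun a b => ⟨mul_mem a.1 b.1, a.2.1.mul_left b.2.1, a.2.2.mul_left b.2.2⟩
  one_mem' := ⟨one_mem _, Commute.one_left _, Commute.one_left _⟩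
  inv_mem' := fun a => ⟨inv_mem a.1, a.2.1.inv_left, a.2.2.inv_left⟩

/-- the largest `T`-invariant subgroup -/
def cr (T X : Subgroup G) : Subgroup G where
  carrier := {n | ∀ s ∈ T, s * n * s⁻¹ ∈ X}
  mul_mem' := fun a b s hs => by rw [← conj_mul]; exact mul_mem (a s hs) (b s hs)
  one_mem' := fun s _ => by simp
  inv_mem' := fun a s hs => by rw [← conj_inv]; exact inv_mem (a s hs)

theorem cr_le {T X : Subgroup G} : cr T X ≤ X := fun n hn => by simpa using hn 1 (one_mem _)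

theorem cr_conj {T X : Subgroup G} {n s : G} (hn : n ∈ cr T X) (hs : s ∈ T) : s * n * s⁻¹ ∈ cr T X :=
  fun r hr => by simpa [mul_assoc] using hn _ (mul_mem hr hs)

end FA

open FA

namespace Fr

variable [Finite G] {T A B : Subgroup G} {v e u a a' : G} (h : Fr T A B v e u a a')
include h

theorem fa_ei : e⁻¹ = e := inv_eq_of_mul_eq_one_right h.ee
theorem fa_ui : u⁻¹ = u := inv_eq_of_mul_eq_one_right h.uu
theorem fa_vi : v⁻¹ = v := inv_eq_of_mul_eq_one_right h.vv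

theorem fa_veq : u * e * u * e = v := by
  rw [← h.fa_vi, ← h.v_eq]; simp only [mul_inv_rev, h.fa_ei, h.fa_ui, mul_assoc]

theorem fa_symm : Fr T B A v u e a' a :=
  ⟨h.two, h.TB, h.TA, fun N x y z => h.free N x z y, h.uT, h.eT, h.uu, h.ee, h.vv, h.v_ne, h.fa_veq, h.aB, h.aA,
    h.b3, h.a3, h.bv, h.bu, h.av, h.ae, h.genB, h.genA,
    fun x hx hc => (h.dec x hx hc).imp fun _ k => ⟨Set.pair_comm e u ▸ k.1, k.2.2, k.2.1⟩,
    fun c x y z => h.cb c x z y, fun c x y z => h.ca c x z y, h.idx,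
    fun t x y => ⟨(h.out t x y).2.2.2, (h.out t x y).2.2.1, (h.out t x y).2.1, (h.out t x y).1⟩, h.outb, h.outa⟩

theorem fa_ev : Commute e v := by
  rw [commute_iff_eq]
  nth_rewrite 1 [← h.fa_veq]
  rw [← h.v_eq]; simp only [mul_assoc]

theorem fa_uv : Commute u v := h.fa_symm.fa_ev

theorem fa_ue : u * e = e * (u * v) := by
  rw [← h.fa_veq]; simp only [← mul_assoc, h.ee, h.uu, one_mul]

theorem fa_vT : v ∈ T := h.v_eq ▸ mul_mem (mul_mem (mul_mem h.eT h.uT) h.eT) h.uT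

theorem fa_rules : (∀ x, e * (e * x) = x) ∧ (∀ x, u * (u * x) = x) ∧ (∀ x, v * (v * x) = x) ∧
    (∀ x, u * (e * x) = e * (u * (v * x))) ∧ (∀ x, v * (e * x) = e * (v * x)) ∧
    (∀ x, v * (u * x) = u * (v * x)) ∧ e * e = 1 ∧ u * u = 1 ∧ v * v = 1 ∧ u * e = e * (u * v) ∧
    v * e = e * v ∧ v * u = u * v ∧ e⁻¹ = e ∧ u⁻¹ = u ∧ v⁻¹ = v :=
  ⟨fun _ => by rw [← mul_assoc, h.ee, one_mul], fun _ => by rw [← mul_assoc, h.uu, one_mul],
    fun _ => by rw [← mul_assoc, h.vv, one_mul], fun _ => by simp only [← mul_assoc, h.fa_ue],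
    fun _ => h.fa_ev.symm.left_comm _, fun _ => h.fa_uv.symm.left_comm _, h.ee, h.uu, h.vv, h.fa_ue,
    h.fa_ev.symm, h.fa_uv.symm, h.fa_ei, h.fa_ui, h.fa_vi⟩

theorem fa_nf {d : G} (hd : d ∈ closure {e, u}) : d = 1 ∨ d = v ∨ d = e ∨ d = e * v ∨ d = u ∨ d = u * v ∨
    d = e * u ∨ d = e * (u * v) := by
  have k : ∀ x ∈ ({e, u} : Set G), ∀ d, (d = 1 ∨ d = v ∨ d = e ∨ d = e * v ∨ d = u ∨ d = u * v ∨
      d = e * u ∨ d = e * (u * v)) → x * d = 1 ∨ x * d = v ∨ x * d = e ∨ x * d = e * v ∨ x * d = u ∨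
      x * d = u * v ∨ x * d = e * u ∨ x * d = e * (u * v) := fun x hx d hd => by
    rcases hx with hx | hx <;> rcases hd with c | c | c | c | c | c | c | c <;> rw [hx, c] <;>
      simp only [h.fa_rules, mul_one, true_or, or_true]
  induction hd using closure_induction_left with
  | one => exact Or.inl rfl
  | mul_left x hx y _ ih => exact k x hx y ih
  | inv_mul_cancel x hx y _ ih =>
    have : x⁻¹ = x := by rcases hx with hx | hx <;> rw [hx] <;> simp only [h.fa_rules]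
    exact this.symm ▸ k x hx y ih

theorem fa_cen {d : G} (hd : d ∈ closure {e, u}) (h1 : Commute d e) (h2 : Commute d u) : d = 1 ∨ d = v := by
  rcases h.fa_nf hd with c | c | c | c | c | c | c | c
  · exact .inl c
  · exact .inr c
  all_goals rw [c, commute_iff_eq] at h1 h2; simp [h.fa_rules, mul_assoc, h.v_ne] at h1 h2

theorem fa_comm {d d' : G} (hd : d ∈ closure {e, u}) (hd' : d' ∈ closure {e, u}) : ⁅d, d'⁆ = 1 ∨ ⁅d, d'⁆ = v := by
  rcases h.fa_nf hd with c | c | c | c | c | c | c | c <;>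
    rcases h.fa_nf hd' with c' | c' | c' | c' | c' | c' | c' | c' <;> rw [c, c'] <;>
    simp only [commutatorElement_def, mul_inv_rev, h.fa_rules, mul_assoc, mul_one, one_mul, inv_one, true_or, or_true]

theorem fa_eD : e ∈ closure {e, u} := subset_closure (.inl rfl)
theorem fa_uD : u ∈ closure {e, u} := subset_closure (.inr rfl)
theorem fa_vD : v ∈ closure {e, u} := h.v_eq ▸ mul_mem (mul_mem (mul_mem h.fa_eD h.fa_uD) h.fa_eD) h.fa_uD

theorem fa_DT {d : G} (hd : d ∈ closure {e, u}) : d ∈ T :=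
  (closure_le T).2 (by rintro _ (rfl | rfl); exacts [h.eT, h.uT]) hd

theorem fa_Dv {d : G} (hd : d ∈ closure {e, u}) : Commute d v := (cl_comm h.fa_ev.symm h.fa_uv.symm hd).symm

theorem fa_neu : ¬ Commute e u := fun c => by
  have := h.fa_ue
  rw [← c.eq] at this
  exact h.v_ne (by simpa using this)

theorem fa_nav : ¬ Commute a v := fun c => h.fa_neu (by rw [← h.av, fix c]; exact h.fa_uv.symm)

theorem fa_map (φ : G ≃* G) (hT : ∀ x, φ x ∈ T ↔ x ∈ T) (hA : ∀ x, φ x ∈ A ↔ x ∈ A)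
    (hB : ∀ x, φ x ∈ B ↔ x ∈ B) : Fr T A B (φ v) (φ e) (φ u) (φ a) (φ a') := by
  have c : ∀ x y, Commute (φ x) (φ y) ↔ Commute x y := fun x y => by
    simp only [commute_iff_eq, ← map_mul, φ.apply_eq_iff_eq]
  have g : ∀ {X : Subgroup G} {b : G}, (∀ x, φ x ∈ X ↔ x ∈ X) → X ≤ zpowers b ⊔ T → X ≤ zpowers (φ b) ⊔ T :=
    fun {X b} h1 h2 x hx => by
      obtain ⟨y, rfl⟩ := φ.surjective x
      have : zpowers b ⊔ T ≤ (zpowers (φ b) ⊔ T).comap φ.toMonoidHom :=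
        sup_le (zpowers_le.2 (mem_comap.2 (mem_sup_left (mem_zpowers _))))
          fun z hz => mem_comap.2 (mem_sup_right ((hT z).2 hz))
      exact this (h2 ((h1 y).1 hx))
  refine ⟨h.two, h.TA, h.TB, h.free, (hT _).2 h.eT, (hT _).2 h.uT, ?_, ?_, ?_, ?_, ?_, (hA _).2 h.aA,
    (hB _).2 h.aB, ?_, ?_, ?_, ?_, ?_, ?_, g hA h.genA, g hB h.genB, φ.surjective.forall.2 fun x hx hc => ?_,
    φ.surjective.forall.2 ?_, φ.surjective.forall.2 ?_,
    φ.surjective.forall.2 fun x hx => φ.surjective.forall.2 ?_, φ.surjective.forall.2 ?_,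
    φ.surjective.forall.2 ?_, φ.surjective.forall.2 ?_⟩
  on_goal 12 =>
    obtain ⟨d, h1, h2⟩ := h.dec x ((hT x).1 hx) ((c _ _).1 hc)
    refine ⟨φ d, (closure_le (K := (closure {φ e, φ u}).comap φ.toMonoidHom)).2 ?_ h1, ?_⟩
    · rintro _ (rfl | rfl)
      exacts [subset_closure (.inl rfl), subset_closure (.inr rfl)]
    · simpa only [← map_mul, c] using h2
  all_goals simp only [← map_mul, ← map_inv, ← map_pow, c, hT, φ.apply_eq_iff_eq, ne_eq, map_eq_one_iff φ φ.injective]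
  exacts [h.ee, h.uu, h.vv, h.v_ne, h.v_eq, h.a3, h.b3, h.av, h.ae, h.bv, h.bu, h.ca, h.cb, h.idx x ((hT x).1 hx),
    h.out, h.outa, h.outb]

theorem fa_cj {t : G} (ht : t ∈ T) :
    Fr T A B (t * v * t⁻¹) (t * e * t⁻¹) (t * u * t⁻¹) (t * a * t⁻¹) (t * a' * t⁻¹) := by
  have k : ∀ X : Subgroup G, t ∈ X → ∀ x, MulAut.conj t x ∈ X ↔ x ∈ X := fun X hX x => by
    rw [MulAut.conj_apply, mul_mem_cancel_right (inv_mem hX), mul_mem_cancel_left hX]
  exact h.fa_map (MulAut.conj t) (k _ ht) (k _ (h.TA ht)) (k _ (h.TB ht))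

theorem fa_Ov {c : G} (hc : c ∈ C2 T e u) : Commute c v := cl_comm hc.2.1 hc.2.2 h.fa_vD

theorem fa_vO : v ∈ C2 T e u := ⟨h.fa_vT, h.fa_ev.symm, h.fa_uv.symm⟩

/-- `C_T(v) = D₁ C_T(D₁)` -/
theorem fa_dec {x : G} (hx : x ∈ T) (hc : Commute x v) : ∃ d ∈ closure {e, u}, ∃ c ∈ C2 T e u, x = d * c := by
  obtain ⟨d, h1, h2, h3⟩ := h.dec x hx hc
  exact ⟨d⁻¹, inv_mem h1, x * d, ⟨mul_mem hx (h.fa_DT h1), h2, h3⟩, by
    rw [← (cl_comm h2 h3 (inv_mem h1)).eq, mul_inv_cancel_right]⟩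

theorem fa_normD {x d : G} (hx : x ∈ T) (hc : Commute x v) (hd : d ∈ closure {e, u}) :
    x * d * x⁻¹ ∈ closure {e, u} := by
  obtain ⟨f, h1, c, h2, rfl⟩ := h.fa_dec hx hc
  rw [show f * c * d * (f * c)⁻¹ = f * (c * d * c⁻¹) * f⁻¹ by group, fix (cl_comm h2.2.1 h2.2.2 hd)]
  exact mul_mem (mul_mem h1 hd) (inv_mem h1)

theorem fa_cjO {x n : G} (hx : x ∈ T) (hc : Commute x v) (hn : n ∈ C2 T e u) :
    ∃ c ∈ C2 T e u, x * n * x⁻¹ = c * n * c⁻¹ := by
  obtain ⟨f, h1, c, h2, rfl⟩ := h.fa_dec hx hc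
  refine ⟨c, h2, ?_⟩
  rw [← (cl_comm h2.2.1 h2.2.2 h1).eq, show c * f * n * (c * f)⁻¹ = c * (f * n * f⁻¹) * c⁻¹ by group,
    fix (cl_comm hn.2.1 hn.2.2 h1).symm]

theorem fa_normO {x n : G} (hx : x ∈ T) (hc : Commute x v) (hn : n ∈ C2 T e u) : x * n * x⁻¹ ∈ C2 T e u := by
  obtain ⟨c, h1, h2⟩ := h.fa_cjO hx hc hn
  exact h2 ▸ mul_mem (mul_mem h1 hn) (inv_mem h1)

theorem fa_Pv {c : G} (hc : c ∈ C2 T e u) : Commute (c * v) a ↔ ¬ Commute c a :=
  ⟨fun h1 h2 => h.fa_nav (right_of_mul h1 h2).symm, (h.ca c hc.1 hc.2.1 hc.2.2).resolve_left⟩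

theorem fa_vv {c c' : G} (hc' : c' ∈ C2 T e u) : c * v * (c' * v) = c * c' := by
  rw [(h.fa_Ov hc').symm.mul_mul_mul_comm, h.vv, mul_one]

theorem fa_Pmul {c c' : G} (hc : c ∈ C2 T e u) (hc' : c' ∈ C2 T e u) :
    Commute (c * c') a ↔ (Commute c a ↔ Commute c' a) := by
  refine ⟨fun h1 => ⟨right_of_mul h1, left_of_mul h1⟩, fun h1 => ?_⟩
  by_cases h2 : Commute c a
  · exact h2.mul_left (h1.1 h2)
  · rw [← h.fa_vv hc']
    exact ((h.fa_Pv hc).2 h2).mul_left ((h.fa_Pv hc').2 fun k => h2 (h1.2 k))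

theorem fa_symO {c : G} (hc : c ∈ C2 T e u) : c ∈ C2 T u e := ⟨hc.1, hc.2.2, hc.2.1⟩

theorem fa_Qv {c : G} (hc : c ∈ C2 T e u) : Commute (c * v) a' ↔ ¬ Commute c a' :=
  h.fa_symm.fa_Pv (h.fa_symO hc)

theorem fa_Qmul {c c' : G} (hc : c ∈ C2 T e u) (hc' : c' ∈ C2 T e u) :
    Commute (c * c') a' ↔ (Commute c a' ↔ Commute c' a') := h.fa_symm.fa_Pmul (h.fa_symO hc) (h.fa_symO hc')

theorem fa_cja {c n : G} (hc : c ∈ C2 T e u) (hn : n ∈ C2 T e u) (ha : Commute n a) : Commute (c * n * c⁻¹) a := by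
  rw [h.fa_Pmul (mul_mem hc hn) (inv_mem hc), h.fa_Pmul hc hn, Commute.inv_left_iff]
  tauto

theorem fa_normN {x n : G} (hx : x ∈ T) (hc : Commute x v) (hn : n ∈ C2 T e u ⊓ C2 T a a') :
    x * n * x⁻¹ ∈ C2 T e u ⊓ C2 T a a' := by
  refine ⟨h.fa_normO hx hc hn.1, (h.fa_normO hx hc hn.1).1, ?_⟩
  obtain ⟨c, h1, h2⟩ := h.fa_cjO hx hc hn.1
  exact h2 ▸ ⟨h.fa_cja h1 hn.1 hn.2.2.1, h.fa_symm.fa_cja (h.fa_symO h1) (h.fa_symO hn.1) hn.2.2.2⟩

theorem fa_core {n : G} (hn : n ∈ cr T (C2 T e u ⊓ C2 T a a')) : n = 1 := by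
  have k : ∀ b : G, (∀ n ∈ cr T (C2 T e u ⊓ C2 T a a'), Commute n b) →
      zpowers b ⊔ T ≤ 𝐍[cr T (C2 T e u ⊓ C2 T a a')] := fun b hb =>
    sup_le (zpowers_le.2 (centralizer_le_normalizer' _ fun n hn => hb n hn))
      (le_normalizer_iff.2 fun s hs n hn => cr_conj hn hs)
  rwa [h.free (cr T (C2 T e u ⊓ C2 T a a')) (h.two.to_le fun n hn => (cr_le hn).1.1)
    (h.genA.trans (k a fun n hn => (cr_le hn).2.2.1)) (h.genB.trans (k a' fun n hn => (cr_le hn).2.2.2)),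
    mem_bot] at hn

theorem fa_sq {c : G} (hc : c ∈ C2 T e u) : c * c ∈ C2 T e u ⊓ C2 T a a' :=
  ⟨mul_mem hc hc, mul_mem hc.1 hc.1, (h.fa_Pmul hc hc).2 Iff.rfl, (h.fa_Qmul hc hc).2 Iff.rfl⟩

theorem fa_sq' {c : G} (hc : c ∈ cr T (C2 T e u)) : c * c = 1 :=
  h.fa_core fun s hs => by rw [← conj_mul]; exact h.fa_sq (hc s hs)

/-- membership in a core is tested on `1` and `t⁻¹` -/
theorem fa_cr {t : G} (ht : t ∈ T) (hn : ¬ Commute t v) {X : Subgroup G}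
    (hX : ∀ x ∈ T, Commute x v → ∀ n ∈ X, x * n * x⁻¹ ∈ X) {n : G} (h1 : n ∈ X) (h2 : t⁻¹ * n * t ∈ X) :
    n ∈ cr T X := fun s hs => by
  by_cases hc : Commute s v
  · exact hX s hs hc n h1
  · simpa [mul_assoc] using hX _ (mul_mem hs ht) (h.idx s hs t ht hc hn) _ h2

theorem fa_idx {s t : G} (hs : s ∈ T) (ht : t ∈ T) (h1 : ¬ Commute s v) (h2 : ¬ Commute t v) :
    Commute (s⁻¹ * t) v := h.idx _ (inv_mem hs) _ ht (by simpa using h1) h2

theorem fa_vt {t x : G} (ht : t ∈ T) (hx : x ∈ T) (hc : Commute x v) : Commute x (t * v * t⁻¹) := by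
  by_cases hn : Commute t v
  · rwa [fix hn]
  · rw [← cc', mul_assoc]
    exact h.fa_idx ht (mul_mem hx ht) hn fun k => hn (right_of_mul k hc)

theorem fa_DD {t d d' : G} (ht : t ∈ T) (hn : ¬ Commute t v) (hd : d ∈ closure {e, u})
    (hd' : d' ∈ closure {e, u}) : Commute d (t * d' * t⁻¹) := by
  obtain ⟨h1, h2, h3, h4⟩ := h.out t ht hn
  rw [← cc']
  refine cl_comm ?_ ?_ hd' <;> rw [cc']
  exacts [(cl_comm h1.symm h3.symm hd).symm, (cl_comm h2.symm h4.symm hd).symm]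

theorem fa_inter {t d d' : G} (ht : t ∈ T) (hn : ¬ Commute t v) (hd : d ∈ closure {e, u})
    (hd' : d' ∈ closure {e, u}) (k : d = t * d' * t⁻¹) : d = 1 := by
  rcases h.fa_cen hd (k ▸ (h.fa_DD ht hn h.fa_eD hd').symm) (k ▸ (h.fa_DD ht hn h.fa_uD hd').symm) with c | c
  · exact c
  rcases h.fa_cen hd' ((cc t _ _).1 (k ▸ h.fa_DD ht hn hd h.fa_eD))
    ((cc t _ _).1 (k ▸ h.fa_DD ht hn hd h.fa_uD)) with c' | c'
  · rw [k, c']; simp
  · rw [c, c'] at k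
    exact absurd (ofFix k.symm) hn

end Fr

end Cfsg.Agent.QZ
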