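import Mathlib
import Cfsg.Agent.QZ.Def
import Cfsg.Agent.QZ.FinA1

/-! The structure of `T` given by a frame `Fr` (pure element calculations). -/

set_option autoImplicit false
set_option linter.unusedSectionVars false

namespace Cfsg.Agent.QZ.Fr

open Subgroup Cfsg.Agent.PLocal Cfsg.Agent.PLocal.Amb Cfsg.Agent.PLocal.CP Cfsg.Agent.PLocal.JC FA
open scoped commutatorElement

theorem fa_p1 {p q r s x1 x2 x3 x4 x5 x6 : Prop} (k1 : p → q → x1) (k2 : ¬ p → ¬ q → x2) (k3 : r → s → x3)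
    (k4 : ¬ r → ¬ s → x4) (k5 : (p ↔ r) → (q ↔ s) → x5) (k6 : ¬ (p ↔ r) → ¬ (q ↔ s) → x6) :
    x1 ∨ x2 ∨ x3 ∨ x4 ∨ x5 ∨ x6 := by tauto

theorem fa_p2 {p q r s x : Prop} (h1 : p ↔ q) (h2 : r ↔ s) (k1 : p → q → r → s → x)
    (k2 : ¬ p → ¬ q → r → s → x) (k3 : p → q → ¬ r → ¬ s → x) (k4 : ¬ p → ¬ q → ¬ r → ¬ s → x) : x := by tauto

theorem fa_p3 {P P' Q Q' x y : Prop} (h1 : Q' ↔ Q) (h2 : Q → Q' → False) (k1 : P → P' → x)
    (k2 : (P ↔ Q) → (P' ↔ Q') → y) (k3 : ((P' ↔ Q) ↔ P) → ((P ↔ Q') ↔ P') → False) : x ∨ y := by tauto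

theorem fa_p4 {p q r s : Prop} : ((p ↔ r) ↔ (q ↔ s)) ↔ ((p ↔ q) ↔ (r ↔ s)) := by tauto

variable {G : Type*} [Group G] [Finite G] {T A B : Subgroup G} {v e u a a' : G} (h : Fr T A B v e u a a')
include h

theorem basic : v ∈ T ∧ Commute e v ∧ Commute u v ∧ u * e = e * u * v ∧ ¬ Commute a v ∧ ¬ Commute a' v ∧
    ∀ d ∈ closure {e, u}, Commute d e → Commute d u → d = 1 ∨ d = v :=
  ⟨h.fa_vT, h.fa_ev, h.fa_uv, h.fa_ue.trans (mul_assoc _ _ _).symm, h.fa_nav, h.fa_symm.fa_nav,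
    fun _ => h.fa_cen⟩

/-- `r = 1`. -/
theorem one (h1 : ∀ t ∈ T, Commute t v) : (∀ c ∈ T, Commute c e → Commute c u → c * c = 1) ∧
    ∀ c ∈ T, Commute c e → Commute c u → ∀ c' ∈ T, Commute c' e → Commute c' u →
      c = 1 ∨ c = v ∨ c' = 1 ∨ c' = v ∨ c' = c ∨ c' = c * v := by
  have k : ∀ n ∈ C2 T e u, Commute n a → Commute n a' → n = 1 := fun n hn x y =>
    h.fa_core fun s hs => h.fa_normN hs (h1 s hs) ⟨hn, hn.1, x, y⟩
  have sq : ∀ c ∈ C2 T e u, c * c = 1 := fun c hc => k _ (h.fa_sq hc).1 (h.fa_sq hc).2.2.1 (h.fa_sq hc).2.2.2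
  refine ⟨fun c x y z => sq c ⟨x, y, z⟩, fun c x y z c' x' y' z' => ?_⟩
  have hc : c ∈ C2 T e u := ⟨x, y, z⟩
  have hc' : c' ∈ C2 T e u := ⟨x', y', z'⟩
  have kv : ∀ n ∈ C2 T e u, ¬ Commute n a → ¬ Commute n a' → n = v := fun n hn x y =>
    (eq_inv_of_mul_eq_one_left (k _ (mul_mem hn h.fa_vO) ((h.fa_Pv hn).2 x) ((h.fa_Qv hn).2 y))).trans h.fa_vi
  have k1 := k c hc
  have k2 := kv c hc
  have k3 := k c' hc'
  have k4 := kv c' hc'
  have k5 : Commute (c * c') a → Commute (c * c') a' → c' = c := fun x y =>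
    mul_left_cancel ((k _ (mul_mem hc hc') x y).trans (sq c hc).symm)
  have k6 : ¬ Commute (c * c') a → ¬ Commute (c * c') a' → c' = c * v := fun x y =>
    mul_left_cancel (a := c) (by rw [kv _ (mul_mem hc hc') x y, ← mul_assoc, sq c hc, one_mul])
  rw [h.fa_Pmul hc hc', h.fa_Qmul hc hc'] at k5 k6
  exact fa_p1 k1 k2 k3 k4 k5 k6

/-- `Ω = C_T(D₁ D₂)` for an outer `t` (`D₁ = ⟨e,u⟩`, `D₂ = D₁^t`) -/
def Om (_h : Fr T A B v e u a a') (t c : G) : Prop :=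
  c ∈ T ∧ Commute c e ∧ Commute c u ∧ Commute c (t * e * t⁻¹) ∧ Commute c (t * u * t⁻¹)

theorem fa_om {t : G} (ht : t ∈ T) (hn : ¬ Commute t v) {c : G} : h.Om t c ↔ c ∈ cr T (C2 T e u) := by
  refine ⟨fun k => h.fa_cr ht hn (fun _ hx hc _ => h.fa_normO hx hc) ⟨k.1, k.2.1, k.2.2.1⟩
    ⟨mul_mem (mul_mem (inv_mem ht) k.1) ht, (cc' _ _ _).2 k.2.2.2.1, (cc' _ _ _).2 k.2.2.2.2⟩, fun k => ?_⟩
  have := k _ (inv_mem ht)
  rw [inv_inv] at this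
  exact ⟨(cr_le k).1, (cr_le k).2.1, (cr_le k).2.2, (cc' _ _ _).1 this.2.1, (cc' _ _ _).1 this.2.2⟩

/-- `C_T(v) = D₁ D₂ Ω` -/
theorem dec2 {t : G} (ht : t ∈ T) (hn : ¬ Commute t v) {x : G} (hx : x ∈ T) (hc : Commute x v) :
    ∃ d₁ ∈ closure {e, u}, ∃ d₂ ∈ closure {e, u}, ∃ c, h.Om t c ∧ x = d₁ * (t * d₂ * t⁻¹) * c := by
  obtain ⟨d₁, h1, c₁, h2, rfl⟩ := h.fa_dec hx hc
  obtain ⟨d₂, h3, c, h4, k⟩ := h.fa_dec (mul_mem (mul_mem (inv_mem ht) h2.1) ht)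
    ((cc' _ _ _).2 (h.fa_vt ht h2.1 (h.fa_Ov h2)))
  have k' : c₁ = t * d₂ * t⁻¹ * (t * c * t⁻¹) := by rw [conj_mul, ← k]; group
  exact ⟨d₁, h1, d₂, h3, t * c * t⁻¹, ⟨mul_mem (mul_mem ht h4.1) (inv_mem ht),
    right_of_mul (k' ▸ h2.2.1) (h.fa_DD ht hn h.fa_eD h3).symm,
    right_of_mul (k' ▸ h2.2.2) (h.fa_DD ht hn h.fa_uD h3).symm, (cc _ _ _).2 h4.2.1, (cc _ _ _).2 h4.2.2⟩,
    by rw [mul_assoc d₁, ← k']⟩

theorem om {t : G} (ht : t ∈ T) (hn : ¬ Commute t v) :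
    (∀ c, h.Om t c → h.Om t (t * c * t⁻¹) ∧ h.Om t (t⁻¹ * c * t) ∧ c * c = 1) ∧
    (∀ c c', h.Om t c → h.Om t c' → Commute c c') ∧
    ∀ c, h.Om t c → Commute c a → Commute c a' → Commute c (t * a * t⁻¹) → Commute c (t * a' * t⁻¹) → c = 1 := by
  simp only [h.fa_om ht hn]
  refine ⟨fun c hc => ⟨cr_conj hc ht, by simpa using cr_conj hc (inv_mem ht), h.fa_sq' hc⟩,
    fun c c' => comm_of_sq fun _ => h.fa_sq', fun c hc h1 h2 h3 h4 => ?_⟩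
  have := hc _ (inv_mem ht)
  rw [inv_inv] at this
  exact h.fa_core (h.fa_cr ht hn (fun _ hx hc _ => h.fa_normN hx hc) ⟨cr_le hc, (cr_le hc).1, h1, h2⟩
    ⟨this, this.1, (cc' _ _ _).2 h3, (cc' _ _ _).2 h4⟩)

theorem fa_OD {t c d₁ d₂ : G} (hc : h.Om t c) (h1 : d₁ ∈ closure {e, u}) (h2 : d₂ ∈ closure {e, u}) :
    Commute (d₁ * (t * d₂ * t⁻¹)) c :=
  ((cl_comm hc.2.1 hc.2.2.1 h1).mul_right ((cc' _ _ _).1
    (cl_comm ((cc' _ _ _).2 hc.2.2.2.1) ((cc' _ _ _).2 hc.2.2.2.2) h2))).symm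

/-- commutators in `C_T(v)` -/
theorem comm2 {t : G} (ht : t ∈ T) (hn : ¬ Commute t v) {x y : G} (hx : x ∈ T) (hx' : Commute x v) (hy : y ∈ T)
    (hy' : Commute y v) : ⁅x, y⁆ = 1 ∨ ⁅x, y⁆ = v ∨ ⁅x, y⁆ = t * v * t⁻¹ ∨ ⁅x, y⁆ = v * (t * v * t⁻¹) := by
  obtain ⟨d₁, h1, d₂, h2, c, h3, rfl⟩ := h.dec2 ht hn hx hx'
  obtain ⟨f₁, k1, f₂, k2, b, k3, rfl⟩ := h.dec2 ht hn hy hy'
  rw [comm_mul (h.fa_OD h3 h1 h2) (h.fa_OD k3 h1 h2) (h.fa_OD h3 k1 k2) (h.fa_OD k3 k1 k2),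
    comm_mul (h.fa_DD ht hn h1 h2) (h.fa_DD ht hn h1 k2) (h.fa_DD ht hn k1 h2) (h.fa_DD ht hn k1 k2),
    ((h.om ht hn).2.1 c b h3 k3).commutator_eq, mul_one, ← conjugate_commutatorElement]
  rcases h.fa_comm h1 k1 with p | p <;> rcases h.fa_comm h2 k2 with q | q <;> simp [p, q]

/-- `C_T(v)` has class at most two. -/
theorem cl2 {x y w : G} (hx : x ∈ T) (hx' : Commute x v) (hy : y ∈ T) (hy' : Commute y v) (hw : w ∈ T)
    (hw' : Commute w v) : Commute ⁅x, y⁆ w := by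
  by_cases h1 : ∀ t ∈ T, Commute t v
  · obtain ⟨d, k1, c, k2, rfl⟩ := h.fa_dec hx hx'
    obtain ⟨f, k3, b, k4, rfl⟩ := h.fa_dec hy hy'
    rw [comm_mul (cl_comm k2.2.1 k2.2.2 k1).symm (cl_comm k4.2.1 k4.2.2 k1).symm (cl_comm k2.2.1 k2.2.2 k3).symm
      (cl_comm k4.2.1 k4.2.2 k3).symm,
      (comm_of_sq (X := C2 T e u) (fun c hc => (h.one h1).1 c hc.1 hc.2.1 hc.2.2) k2 k4).commutator_eq, mul_one]
    rcases h.fa_comm k1 k3 with p | p <;> rw [p]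
    exacts [Commute.one_left _, hw'.symm]
  · push Not at h1
    obtain ⟨t, ht, hn⟩ := h1
    rcases h.comm2 ht hn hx hx' hy hy' with p | p | p | p <;> rw [p]
    exacts [Commute.one_left _, hw'.symm, (h.fa_vt ht hw hw').symm, (hw'.mul_right (h.fa_vt ht hw hw')).symm]

/-- Uniqueness of `C_T(v)`. -/
theorem uniq {A' B' : Subgroup G} {v' e' u' b b' : G} (h' : Fr T A' B' v' e' u' b b') {s : G} (hs : s ∈ T)
    (hc : Commute s v') : Commute s v := by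
  by_contra hn
  have cT : ∀ d ∈ closure {e, u}, d * (s * d * s⁻¹) ∈ T := fun d hd =>
    mul_mem (h.fa_DT hd) (mul_mem (mul_mem hs (h.fa_DT hd)) (inv_mem hs))
  have k1 : ∀ d ∈ closure {e, u}, Commute (d * (s * d * s⁻¹)) v' := fun d hd => by
    by_cases k : Commute d v'
    · exact k.mul_left (cj_comm hc k)
    · exact h'.idx _ (h.fa_DT hd) _ (mul_mem (mul_mem hs (h.fa_DT hd)) (inv_mem hs)) k
        fun p => k (right_of_mul (left_of_mul p hc.inv_left) hc)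
  have k2 : ∀ x ∈ closure {e, u}, ∀ d ∈ closure {e, u}, Commute x v' → Commute x d := fun x hx d hd p => by
    by_contra q
    have r := (h'.cl2 (h.fa_DT hx) p hs hc (cT d hd) (k1 d hd)).commutator_eq
    rw [show ⁅x, s⁆ = x * (s * x⁻¹ * s⁻¹) by group, comm_mul (h.fa_DD hs hn hx (inv_mem hx)) (h.fa_DD hs hn hx hd)
      (h.fa_DD hs hn hd (inv_mem hx)) (h.fa_DD hs hn hd hd), ← conjugate_commutatorElement,
      (h.fa_comm hx hd).resolve_left fun z => q (commutatorElement_eq_one_iff_commute.1 z),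
      (h.fa_comm (inv_mem hx) hd).resolve_left fun z =>
        q (by simpa using commutatorElement_eq_one_iff_commute.1 z)] at r
    exact hn (ofFix ((eq_inv_of_mul_eq_one_right r).trans h.fa_vi))
  exact h.fa_neu (right_of_mul (k2 _ (mul_mem h.fa_eD h.fa_uD) _ h.fa_eD (h'.idx _ h.eT _ h.uT
    (fun p => h.fa_neu (k2 _ h.fa_eD _ h.fa_uD p)) fun p => h.fa_neu (k2 _ h.fa_uD _ h.fa_eD p).symm))
    (Commute.refl e)).symm

theorem fa_tw {t : G} (ht : t ∈ T) (hn : ¬ Commute t v) : t * (t * v * t⁻¹) * t⁻¹ = v := by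
  rw [← fix (h.idx t ht t ht hn hn)]
  nth_rewrite 1 [fix (h.idx t ht t ht hn hn)]
  group

/-- an element commuting with `C_T(v)` and with `t` is central -/
theorem fa_all {t y : G} (ht : t ∈ T) (hn : ¬ Commute t v) (h1 : ∀ x ∈ T, Commute x v → Commute x y)
    (h2 : Commute t y) : ∀ s ∈ T, Commute s y := fun s hs => by
  by_cases k : Commute s v
  · exact h1 s hs k
  · exact left_of_mul (h1 _ (mul_mem hs ht) (h.idx s hs t ht k hn)) h2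

/-- `z = v v^t` is central in `T`, independent of the frame, and not centralized by `b ∈ A'`. -/
theorem zz {t : G} (ht : t ∈ T) (hn : ¬ Commute t v) : (∀ s ∈ T, Commute s (v * (t * v * t⁻¹))) ∧
    ∀ (A' B' : Subgroup G) (v' e' u' b b' : G), Fr T A' B' v' e' u' b b' → ¬ Commute b (v * (t * v * t⁻¹)) := by
  have vw := h.fa_vt ht h.fa_vT (Commute.refl v)
  have k := h.fa_all ht hn (fun x hx hc => hc.mul_right (h.fa_vt ht hx hc))
    (ofFix (by rw [← conj_mul, h.fa_tw ht hn, vw.eq]))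
  refine ⟨k, fun A' B' v' e' u' b b' h' hb => ?_⟩
  have hn' : ¬ Commute t v' := fun p => hn (h.uniq h' ht p)
  have k1 := (h'.outa t ht hn').1
  have k2 := h.comm2 ht hn h'.eT (h.uniq h' h'.eT h'.fa_ev) h'.uT (h.uniq h' h'.uT h'.fa_uv)
  rw [(h'.fa_comm h'.fa_eD h'.fa_uD).resolve_left fun z =>
    h'.fa_neu (commutatorElement_eq_one_iff_commute.1 z)] at k2
  rcases k2 with p | p | p | p
  · exact h'.v_ne p
  · exact h'.fa_nav (p ▸ (left_of_mul hb.symm (p ▸ k1.symm)).symm)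
  · rw [p, h.fa_tw ht hn] at k1
    exact h'.fa_nav (p ▸ (right_of_mul hb.symm k1.symm).symm)
  · exact hn' (p ▸ k t ht)

/-- `D₁ D₂` -/
def faD {t : G} (ht : t ∈ T) (hn : ¬ Commute t v) : Subgroup G where
  carrier := {y | ∃ d₁ ∈ closure {e, u}, ∃ d₂ ∈ closure {e, u}, y = d₁ * (t * d₂ * t⁻¹)}
  mul_mem' := by
    rintro _ _ ⟨d₁, h1, d₂, h2, rfl⟩ ⟨f₁, k1, f₂, k2, rfl⟩
    exact ⟨_, mul_mem h1 k1, _, mul_mem h2 k2, by
      rw [(h.fa_DD ht hn k1 h2).symm.mul_mul_mul_comm, conj_mul]⟩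
  one_mem' := ⟨1, one_mem _, 1, one_mem _, by simp⟩
  inv_mem' := by
    rintro _ ⟨d₁, h1, d₂, h2, rfl⟩
    exact ⟨_, inv_mem h1, _, inv_mem h2, by rw [(h.fa_DD ht hn h1 h2).mul_inv, conj_inv]⟩

theorem fa_vcr : v ∈ cr T (C2 T e u) := fun _ hs => ⟨mul_mem (mul_mem hs h.fa_vT) (inv_mem hs),
  (h.fa_vt hs h.eT h.fa_ev).symm, (h.fa_vt hs h.uT h.fa_uv).symm⟩

theorem fa_Rmul {c c' : G} (hc : c ∈ C2 T e u) (hc' : c' ∈ C2 T e u) :
    (Commute (c * c') a ↔ Commute (c * c') a') ↔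
      ((Commute c a ↔ Commute c a') ↔ (Commute c' a ↔ Commute c' a')) := by
  rw [h.fa_Pmul hc hc', h.fa_Qmul hc hc']; exact fa_p4

section

variable {t : G} (ht : t ∈ T) (hn : ¬ Commute t v)
include ht hn

theorem fa_out {s d : G} (hs : s ∈ T) (hn' : ¬ Commute s v) (hd : d ∈ closure {e, u}) :
    ∃ f ∈ closure {e, u}, s * d * s⁻¹ = t * f * t⁻¹ :=
  ⟨_, h.fa_normD (mul_mem (inv_mem ht) hs) (h.fa_idx ht hs hn hn') hd, by group⟩

theorem fa_cD {s d : G} (hs : s ∈ T) (hd : d ∈ closure {e, u}) : s * d * s⁻¹ ∈ h.faD ht hn := by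
  by_cases k : Commute s v
  · exact ⟨_, h.fa_normD hs k hd, 1, one_mem _, by simp⟩
  · obtain ⟨f, h1, h2⟩ := h.fa_out ht hn hs k hd
    exact ⟨1, one_mem _, f, h1, by rw [h2, one_mul]⟩

theorem fa_nD {s y : G} (hs : s ∈ T) (hy : y ∈ h.faD ht hn) : s * y * s⁻¹ ∈ h.faD ht hn := by
  obtain ⟨d₁, h1, d₂, h2, rfl⟩ := hy
  rw [← conj_mul]
  exact mul_mem (h.fa_cD ht hn hs h1) (by simpa [mul_assoc] using h.fa_cD ht hn (mul_mem hs ht) h2)

theorem fa_cenD {y : G} (hy : y ∈ h.faD ht hn) (hc : h.Om t y) :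
    y = 1 ∨ y = v ∨ y = t * v * t⁻¹ ∨ y = v * (t * v * t⁻¹) := by
  obtain ⟨d₁, h1, d₂, h2, rfl⟩ := hy
  rcases h.fa_cen h1 (left_of_mul hc.2.1 (h.fa_DD ht hn h.fa_eD h2).symm)
      (left_of_mul hc.2.2.1 (h.fa_DD ht hn h.fa_uD h2).symm) with p | p <;>
    rcases h.fa_cen h2 ((cc _ _ _).1 (right_of_mul hc.2.2.2.1 (h.fa_DD ht hn h1 h.fa_eD)))
      ((cc _ _ _).1 (right_of_mul hc.2.2.2.2 (h.fa_DD ht hn h1 h.fa_uD))) with q | q <;> simp [p, q]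

theorem fa_inv {s : G} (hs : s ∈ T) (hn' : ¬ Commute s v) (hy : s * s ∈ h.faD ht hn) :
    ∃ r ∈ T, ¬ Commute r v ∧ r * r = 1 := by
  obtain ⟨d, h1, d₂, h2, k⟩ := hy
  obtain ⟨g, h3, k'⟩ := h.fa_out hs hn' ht hn h2
  rw [k'] at k
  have h4 := h.fa_normD (mul_mem hs hs) (h.idx s hs s hs hn' hn') h3
  have k1 : d * (s * g * s⁻¹) = s * s * g * (s * s)⁻¹ * (s * d * s⁻¹) := by
    rw [(h.fa_DD hs hn' h4 h1).eq, ← k, show s * s * g * (s * s)⁻¹ = s * (s * g * s⁻¹) * s⁻¹ by group, conj_mul, ← k]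
    group
  have k2 := h.fa_inter hs hn' (mul_mem (inv_mem h4) h1) (mul_mem h1 (inv_mem h3)) (by
    rw [inv_mul_eq_iff_eq_mul, ← conj_mul, ← mul_assoc, ← k1, ← conj_inv, mul_inv_cancel_right])
  have k3 : g = d := by
    rw [inv_mul_eq_one] at k2
    rw [k2, mul_right_inj, mul_left_inj, mul_right_inj] at k1
    exact k1
  refine ⟨s * d⁻¹, mul_mem hs (inv_mem (h.fa_DT h1)), fun p => hn' (left_of_mul p (h.fa_Dv h1).inv_left), ?_⟩
  rw [show s * d⁻¹ * (s * d⁻¹) = (s * d * s⁻¹)⁻¹ * (s * s) * d⁻¹ by group, k, k3, (h.fa_DD hs hn' h1 h1).eq]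
  group

theorem fa_cO {x c : G} (hx : x ∈ T) (hc : Commute x v) (k : h.Om t c) : Commute x c := by
  obtain ⟨d₁, h1, d₂, h2, b, h3, rfl⟩ := h.dec2 ht hn hx hc
  exact (h.fa_OD k h1 h2).mul_left ((h.om ht hn).2.1 _ _ h3 k)

theorem fa_tt {c : G} (k : h.Om t c) : t * (t * c * t⁻¹) * t⁻¹ = c := by
  rw [show t * (t * c * t⁻¹) * t⁻¹ = t * t * c * (t * t)⁻¹ by group,
    fix (h.fa_cO ht hn (mul_mem ht ht) (h.idx t ht t ht hn hn) k)]

theorem fa_PD {c : G} (hc : c ∈ cr T (C2 T e u)) (h1 : Commute c a ↔ Commute c a')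
    (h2 : Commute (t * c * t⁻¹) a ↔ Commute (t * c * t⁻¹) a') : c ∈ h.faD ht hn := by
  have k : ∀ n ∈ cr T (C2 T e u), Commute n a → Commute n a' → Commute (t * n * t⁻¹) a →
      Commute (t * n * t⁻¹) a' → n ∈ h.faD ht hn := fun n hn' x y z w => by
    have p := (h.fa_om ht hn).2 hn'
    have q : t * n * t⁻¹ = t⁻¹ * n * t := by
      nth_rewrite 2 [← h.fa_tt ht hn p]
      group
    rw [q, cc'] at z w
    exact (h.om ht hn).2.2 n p x y z w ▸ one_mem _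
  have vD : v ∈ h.faD ht hn := by simpa using h.fa_cD ht hn (one_mem _) h.fa_vD
  have wD := h.fa_cD ht hn ht h.fa_vD
  have vO := h.fa_vcr
  have wO := cr_conj vO ht
  have wa := (h.outa t ht hn).1.symm
  have wb := (h.outb t ht hn).1.symm
  have c1 := cr_le hc
  have c2 := hc t ht
  refine fa_p2 h1 h2 (k c hc) (fun p q r s => ?_) (fun p q r s => ?_) fun p q r s => ?_
  · exact (mul_mem_cancel_right vD).1 (k _ (mul_mem hc vO) ((h.fa_Pv c1).2 p) ((h.fa_Qv c1).2 q)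
      (by rw [← conj_mul]; exact r.mul_left wa) (by rw [← conj_mul]; exact s.mul_left wb))
  · exact (mul_mem_cancel_right wD).1 (k _ (mul_mem hc wO) (p.mul_left wa) (q.mul_left wb)
      (by rw [← conj_mul, h.fa_tw ht hn]; exact (h.fa_Pv c2).2 r)
      (by rw [← conj_mul, h.fa_tw ht hn]; exact (h.fa_Qv c2).2 s))
  · have z : t * (c * v * (t * v * t⁻¹)) * t⁻¹ = t * c * t⁻¹ * v * (t * v * t⁻¹) := by
      rw [← conj_mul, ← conj_mul, h.fa_tw ht hn, (h.fa_vt ht h.fa_vT (Commute.refl v)).right_comm]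
    exact (mul_mem_cancel_right vD).1 ((mul_mem_cancel_right wD).1 (k _ (mul_mem (mul_mem hc vO) wO)
      (((h.fa_Pv c1).2 p).mul_left wa) (((h.fa_Qv c1).2 q).mul_left wb)
      (by rw [z]; exact ((h.fa_Pv c2).2 r).mul_left wa) (by rw [z]; exact ((h.fa_Qv c2).2 s).mul_left wb)))

end

/-- If there is no outer involution then `T / D₁D₂` is cyclic of order 4, generated by `t`, and there is a central
involution `c ∉ D₁D₂` commuting with `a`. -/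
theorem cyc {t : G} (ht : t ∈ T) (hn : ¬ Commute t v) (hno : ∀ s ∈ T, ¬ Commute s v → s * s ≠ 1) :
    ∃ (D : Subgroup G) (c : G), D ≤ T ∧ T ≤ 𝐍[D] ∧ (∀ x ∈ T, ∃ i : ℕ, (t ^ i)⁻¹ * x ∈ D) ∧ c ∈ T ∧ c ∉ D ∧ c * c = 1 ∧
      (∀ s ∈ T, Commute s c) ∧ Commute c a ∧
      ∀ y ∈ D, (∀ s ∈ T, Commute s y) → y = 1 ∨ y = v * (t * v * t⁻¹) := by
  have no : ∀ s ∈ T, ¬ Commute s v → s * s ∉ h.faD ht hn := fun s hs hn' k => by
    obtain ⟨r, h1, h2, h3⟩ := h.fa_inv ht hn hs hn' k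
    exact hno r h1 h2 h3
  have DT : h.faD ht hn ≤ T := by
    rintro _ ⟨d₁, h1, d₂, h2, rfl⟩
    exact mul_mem (h.fa_DT h1) (mul_mem (mul_mem ht (h.fa_DT h2)) (inv_mem ht))
  have cen : ∀ y ∈ h.faD ht hn, (∀ s ∈ T, Commute s y) → y = 1 ∨ y = v * (t * v * t⁻¹) := fun y hy k => by
    have cT : ∀ x ∈ T, t * x * t⁻¹ ∈ T := fun x hx => mul_mem (mul_mem ht hx) (inv_mem ht)
    rcases h.fa_cenD ht hn hy ⟨DT hy, (k _ h.eT).symm, (k _ h.uT).symm, (k _ (cT _ h.eT)).symm,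
      (k _ (cT _ h.uT)).symm⟩ with p | p | p | p
    · exact .inl p
    · exact absurd (p ▸ k t ht) hn
    · exact absurd ((cc t _ _).1 (by simpa [p] using k t ht)) hn
    · exact .inr p
  obtain ⟨d₁, h1, d₂, h2, ω, h3, tt⟩ := h.dec2 ht hn (mul_mem ht ht) (h.idx t ht t ht hn hn)
  have dD : d₁ * (t * d₂ * t⁻¹) ∈ h.faD ht hn := ⟨_, h1, _, h2, rfl⟩
  have dO := fun c (hc : c ∈ cr T (C2 T e u)) => h.fa_OD ((h.fa_om ht hn).2 hc) h1 h2
  generalize d₁ * (t * d₂ * t⁻¹) = d at tt dD dO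
  have ωO := (h.fa_om ht hn).1 h3
  have ωD : ω ∉ h.faD ht hn := fun k => no t ht hn (tt ▸ mul_mem dD k)
  have vO := h.fa_vcr
  have wO := cr_conj vO ht
  have vD : v ∈ h.faD ht hn := by simpa using h.fa_cD ht hn (one_mem _) h.fa_vD
  have wD := h.fa_cD ht hn ht h.fa_vD
  have wa := (h.outa t ht hn).1.symm
  have cO : ∀ x ∈ T, Commute x v → ∀ c ∈ cr T (C2 T e u), Commute x c := fun x hx hc c k =>
    h.fa_cO ht hn hx hc ((h.fa_om ht hn).2 k)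
  have ab : ∀ c ∈ cr T (C2 T e u), ∀ c' ∈ cr T (C2 T e u), Commute c c' := fun _ x _ y =>
    comm_of_sq (fun _ => h.fa_sq') x y
  have σσ := fun c (hc : c ∈ cr T (C2 T e u)) => h.fa_tt ht hn ((h.fa_om ht hn).2 hc)
  have ζO := mul_mem (cr_conj ωO ht) ωO
  have ζD : t * ω * t⁻¹ * ω ∈ h.faD ht hn := by
    have : t * d * t⁻¹ * (t * ω * t⁻¹ * ω) = d := by
      rw [← mul_assoc, conj_mul, ← tt, ← mul_assoc, mul_inv_cancel_right, tt, mul_assoc, h.fa_sq' ωO, mul_one]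
    exact (mul_mem_cancel_left (h.fa_nD ht hn ht dD)).1 (this.symm ▸ dD)
  have ζ := cen _ ζD (h.fa_all ht hn (fun x hx hc => cO x hx hc _ ζO)
    (ofFix (by rw [← conj_mul, σσ ω ωO, (ab _ ωO _ (cr_conj ωO ht)).eq])))
  have ζP : Commute (t * ω * t⁻¹ * ω) a ↔ Commute (t * ω * t⁻¹ * ω) a' := by
    rcases ζ with p | p <;> rw [p]
    · simp
    · exact iff_of_false (fun q => h.fa_nav (left_of_mul q wa).symm)
        fun q => h.fa_symm.fa_nav (left_of_mul q (h.outb t ht hn).1.symm).symm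
  have ωP := fun x y => ωD (h.fa_PD ht hn ωO x y)
  rw [h.fa_Rmul (ωO t ht) (cr_le ωO)] at ζP
  have key : ∀ c ∈ cr T (C2 T e u), c ∈ h.faD ht hn ∨ c * ω ∈ h.faD ht hn := fun c hc => by
    have k1 := h.fa_PD ht hn hc
    have k2 := h.fa_PD ht hn (mul_mem hc ωO)
    have k3 := fun x y => no _ (mul_mem ht (cr_le hc).1) (fun p => hn (left_of_mul p (h.fa_Ov (cr_le hc)))) (by
      rw [show t * c * (t * c) = t * c * t⁻¹ * (t * t) * c by group, tt, ← mul_assoc, ← (dO _ (cr_conj hc ht)).eq,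
        mul_assoc, mul_assoc]
      rw [← mul_assoc _ ω]
      exact mul_mem dD (h.fa_PD ht hn (mul_mem (mul_mem (cr_conj hc ht) ωO) hc) x y))
    rw [h.fa_Rmul (cr_le hc) (cr_le ωO), ← conj_mul, h.fa_Rmul (hc t ht) (ωO t ht)] at k2
    rw [h.fa_Rmul (mul_mem (hc t ht) (cr_le ωO)) (cr_le hc), h.fa_Rmul (hc t ht) (cr_le ωO), ← conj_mul, ← conj_mul,
      σσ c hc, h.fa_Rmul (mul_mem (cr_le hc) (ωO t ht)) (hc t ht), h.fa_Rmul (cr_le hc) (ωO t ht)] at k3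
    exact fa_p3 ζP ωP k1 k2 k3
  have gen : ∀ x ∈ T, Commute x v → ∃ i : ℕ, (t ^ i)⁻¹ * x ∈ h.faD ht hn := fun x hx hc => by
    obtain ⟨f₁, k1, f₂, k2, c, k3, rfl⟩ := h.dec2 ht hn hx hc
    have fD : f₁ * (t * f₂ * t⁻¹) ∈ h.faD ht hn := ⟨_, k1, _, k2, rfl⟩
    rcases key c ((h.fa_om ht hn).1 k3) with p | p
    · exact ⟨0, by simpa using mul_mem fD p⟩
    · refine ⟨2, ?_⟩
      rw [pow_two, tt, (dO ω ωO).mul_inv, inv_eq_of_mul_eq_one_right (h.fa_sq' ωO), mul_assoc,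
        ← (cO _ hx hc ω ωO).eq, mul_assoc _ c]
      exact mul_mem (inv_mem dD) (mul_mem fD p)
  obtain ⟨c, c1, c2, c3⟩ : ∃ c ∈ cr T (C2 T e u), c ∉ h.faD ht hn ∧ Commute t c := by
    have q : ∀ y, t * ω * t⁻¹ * ω = y → t * ω * t⁻¹ = y * ω := fun y p => by
      rw [← p, mul_assoc _ ω ω, h.fa_sq' ωO, mul_one]
    rcases ζ with p | p
    · exact ⟨ω, ωO, ωD, ofFix (by rw [q _ p, one_mul])⟩
    · refine ⟨ω * v, mul_mem ωO vO, by rwa [mul_mem_cancel_right vD], ofFix ?_⟩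
      rw [← conj_mul, q _ p, mul_assoc, (ab _ ωO _ wO).eq, ← mul_assoc, mul_assoc v, h.fa_sq' wO, mul_one,
        (ab _ ωO _ vO).eq]
  obtain ⟨b, b1, b2, b3, b4⟩ : ∃ b ∈ cr T (C2 T e u), b ∉ h.faD ht hn ∧ Commute t b ∧ Commute b a := by
    by_cases p : Commute c a
    · exact ⟨c, c1, c2, c3, p⟩
    · exact ⟨c * (v * (t * v * t⁻¹)), mul_mem c1 (mul_mem vO wO), by rwa [mul_mem_cancel_right (mul_mem vD wD)],
        c3.mul_right ((h.zz ht hn).1 t ht), mul_assoc c v _ ▸ ((h.fa_Pv (cr_le c1)).2 p).mul_left wa⟩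
  refine ⟨h.faD ht hn, b, DT, le_normalizer_iff.2 fun s hs y hy => h.fa_nD ht hn hs hy, fun x hx => ?_,
    (cr_le b1).1, b2, h.fa_sq' b1, h.fa_all ht hn (fun x hx hc => cO x hx hc b b1) b3, b4, cen⟩
  by_cases p : Commute x v
  · exact gen x hx p
  · obtain ⟨i, hi⟩ := gen _ (mul_mem (inv_mem ht) hx) (h.fa_idx ht hx hn p)
    exact ⟨i + 1, by rwa [pow_succ', mul_inv_rev, mul_assoc]⟩

end Cfsg.Agent.QZ.Fr
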